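import Cfsg.Agent.QBaer.Step
import Cfsg.Agent.S0542

/-!
Coprime class sizes: general lemmas, and groups whose two largest class sizes are coprime.
-/

set_option autoImplicit false

namespace Cfsg.Agent.Mdx.CC

open Subgroup Cfsg.Agent.H72 Cfsg.Agent.QBaer
open scoped Pointwise

variable {G : Type*} [Group G]

/-- `n`-part and `n'`-part of a number. -/
theorem exists_split_nat (n : ℕ) : ∀ o : ℕ, 0 < o → ∃ a b k : ℕ, o = a * b ∧ a ∣ n ^ k ∧
    b.Coprime n := by
  intro o
  induction o using Nat.strong_induction_on with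
  | _ o ih =>
    intro ho
    by_cases h : o.Coprime n
    · exact ⟨1, o, 0, by simp, by simp, h⟩
    · set d := Nat.gcd o n with hd
      have hd1 : 1 < d := by
        have h1 : d ≠ 1 := h
        have h2 : d ≠ 0 := by
          intro h3
          rw [hd, Nat.gcd_eq_zero_iff] at h3
          omega
        omega
      obtain ⟨o', ho'⟩ : d ∣ o := Nat.gcd_dvd_left _ _
      have hdn : d ∣ n := Nat.gcd_dvd_right _ _
      have ho'0 : 0 < o' := by
        rcases Nat.eq_zero_or_pos o' with h3 | h3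
        · rw [h3, mul_zero] at ho'; omega
        · exact h3
      have hlt : o' < o := by
        rw [ho']
        nlinarith
      obtain ⟨a, b, k, h1, h2, h3⟩ := ih o' hlt ho'0
      refine ⟨d * a, b, k + 1, ?_, ?_, h3⟩
      · rw [ho', h1, mul_assoc]
      · rw [pow_succ, mul_comm (n ^ k)]
        exact Nat.mul_dvd_mul hdn h2

/-- splitting an element -/
theorem exists_split [Finite G] (n : ℕ) (g : G) : ∃ i j k : ℕ, g = g ^ i * g ^ j ∧
    orderOf (g ^ i) ∣ n ^ k ∧ (orderOf (g ^ j)).Coprime n := by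
  obtain ⟨a, b, k, h1, h2, h3⟩ := exists_split_nat n (orderOf g) (orderOf_pos g)
  have hab : a.Coprime b :=
    Nat.Coprime.coprime_dvd_left h2 (Nat.Coprime.pow_left k h3.symm)
  obtain ⟨i, hi1, hi2⟩ := Nat.chineseRemainder hab 1 0
  obtain ⟨j, hj1, hj2⟩ := Nat.chineseRemainder hab 0 1
  have hia : b ∣ i := (Nat.modEq_zero_iff_dvd).1 hi2
  have hja : a ∣ j := (Nat.modEq_zero_iff_dvd).1 hj1
  refine ⟨i, j, k, ?_, ?_, ?_⟩
  · rw [← pow_add]
    have h4 : i + j ≡ 1 [MOD orderOf g] := by
      rw [h1]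
      apply (Nat.modEq_and_modEq_iff_modEq_mul hab).1
      exact ⟨by simpa using hi1.add hj1, by simpa using hi2.add hj2⟩
    have h5 := (pow_eq_pow_iff_modEq (x := g)).2 h4
    rw [h5, pow_one]
  · refine dvd_trans ?_ h2
    rw [orderOf_dvd_iff_pow_eq_one, ← pow_mul]
    apply orderOf_dvd_iff_pow_eq_one.1
    rw [h1, mul_comm i a]
    exact Nat.mul_dvd_mul_left a hia
  · refine Nat.Coprime.coprime_dvd_left ?_ h3
    rw [orderOf_dvd_iff_pow_eq_one, ← pow_mul]
    apply orderOf_dvd_iff_pow_eq_one.1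
    rw [h1, mul_comm a b, mul_comm j b]
    exact Nat.mul_dvd_mul_left b hja

theorem eq_one_of_pow {z : G} {a b : ℕ} (hab : a.Coprime b) (ha : z ^ a = 1) (hb : z ^ b = 1) :
    z = 1 := by
  have h1 : orderOf z ∣ Nat.gcd a b :=
    Nat.dvd_gcd (orderOf_dvd_of_pow_eq_one ha) (orderOf_dvd_of_pow_eq_one hb)
  rw [hab.gcd_eq_one, Nat.dvd_one, orderOf_eq_one_iff] at h1
  exact h1

/-- commuting elements of coprime orders -/
theorem Cx_mul_of_coprime {a b : G} (hab : a * b = b * a) (hc : (orderOf a).Coprime (orderOf b)) :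
    Cx (a * b) = Cx a ⊓ Cx b := by
  have key : ∀ {a b : G}, a * b = b * a → (orderOf a).Coprime (orderOf b) → Cx (a * b) ≤ Cx a := by
    intro a b hab hc g hg
    obtain ⟨i, hi1, hi2⟩ := Nat.chineseRemainder hc 1 0
    have h1 : (a * b) ^ i = a := by
      have h2 : Commute a b := hab
      rw [h2.mul_pow]
      have h3 : a ^ i = a := by
        have := (pow_eq_pow_iff_modEq (x := a)).2 hi1
        rwa [pow_one] at this
      have h4 : b ^ i = 1 := by
        have := (pow_eq_pow_iff_modEq (x := b)).2 hi2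
        rwa [pow_zero] at this
      rw [h3, h4, mul_one]
    rw [mem_Cx] at hg ⊢
    have h5 : Commute g (a * b) := hg
    have h6 := h5.pow_right i
    rw [h1] at h6
    exact h6.eq
  apply le_antisymm
  · refine le_inf (key hab hc) ?_
    rw [hab]
    exact key hab.symm hc.symm
  · intro g hg
    rw [mem_inf, mem_Cx, mem_Cx] at hg
    rw [mem_Cx]
    calc g * (a * b) = (g * a) * b := by group
      _ = a * (g * b) := by rw [hg.1]; group
      _ = a * b * g := by rw [hg.2]; group

theorem Cx_pow_le (g : G) (i : ℕ) : Cx g ≤ Cx (g ^ i) := by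
  intro a ha
  rw [mem_Cx] at ha ⊢
  have h1 : Commute a g := ha
  exact (h1.pow_right i).eq

theorem Cx_inv (g : G) : Cx g⁻¹ = Cx g := by
  ext a
  rw [mem_Cx, mem_Cx]
  constructor
  · intro h
    have h1 : Commute a g⁻¹ := h
    have := h1.inv_right
    rw [inv_inv] at this
    exact this.eq
  · intro h
    have h1 : Commute a g := h
    exact h1.inv_right.eq

theorem conj_pow_mul {w x z : G} (h : w * x * w⁻¹ = x * z) (hz : z * w = w * z) (i : ℕ) :
    w ^ i * x * (w ^ i)⁻¹ = x * z ^ i := by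
  induction i with
  | zero => simp
  | succ i ih =>
    have h1 : Commute w (z ^ i) := by
      have : Commute w z := hz.symm
      exact this.pow_right i
    calc w ^ (i + 1) * x * (w ^ (i + 1))⁻¹ = w * (w ^ i * x * (w ^ i)⁻¹) * w⁻¹ := by
          rw [pow_succ']; group
      _ = w * x * z ^ i * w⁻¹ := by rw [ih]; group
      _ = w * x * (z ^ i * w⁻¹) := by group
      _ = w * x * (w⁻¹ * z ^ i) := by rw [(h1.inv_left).eq]
      _ = (w * x * w⁻¹) * z ^ i := by group
      _ = x * z ^ (i + 1) := by rw [h, pow_succ']; group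

section fin

variable [Finite G]

theorem index_le_mul {g h : G} (hc : (Cx g).index.Coprime (Cx h).index) :
    (Cx h).index ≤ (Cx (g * h)).index := by
  rw [← card_Cl, ← card_Cl]
  have hf : ∀ v : Cl h, g * v.1 ∈ Cl (g * h) := by
    intro v
    have := mul_mem_Cl_mul hc 1 v.2
    simpa using this
  exact Nat.card_le_card_of_injective (fun v : Cl h => (⟨g * v.1, hf v⟩ : Cl (g * h)))
    (fun v w hvw => Subtype.ext (mul_left_cancel (congrArg Subtype.val hvw)))

theorem index_le_mul' {g h : G} (hc : (Cx g).index.Coprime (Cx h).index) :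
    (Cx g).index ≤ (Cx (g * h)).index := by
  rw [← card_Cl, ← card_Cl]
  have hf : ∀ v : Cl g, v.1 * h ∈ Cl (g * h) := by
    rintro ⟨_, a, rfl⟩
    exact mul_mem_Cl_mul hc a (mem_Cl_self h)
  exact Nat.card_le_card_of_injective (fun v : Cl g => (⟨v.1 * h, hf v⟩ : Cl (g * h)))
    (fun v w hvw => Subtype.ext (mul_right_cancel (congrArg Subtype.val hvw)))

/-- the stabilizer of a class under left multiplication -/
abbrev St (y : G) : Subgroup G := MulAction.stabilizer G (Cl y)

theorem card_St_dvd (y : G) : Nat.card (St y) ∣ (Cx y).index := by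
  have := card_stabilizer_dvd (Cl y)
  rwa [card_Cl] at this

theorem pow_St {y z : G} (hz : z ∈ St y) : z ^ (Cx y).index = 1 := by
  obtain ⟨c, hc⟩ := card_St_dvd y
  have h1 : (⟨z, hz⟩ : St y) ^ Nat.card (St y) = 1 := pow_card_eq_one'
  have h2 : z ^ Nat.card (St y) = 1 := congrArg Subtype.val h1
  rw [hc, pow_mul, h2, one_pow]

theorem St_le_Cx {y v : G} (hc : (Cx v).index.Coprime (Cx y).index) : St y ≤ Cx v := by
  have := stab_normal y
  have h1 : (Cx v).relIndex (St y) ∣ (Cx v).index :=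
    S0542.relIndex_dvd_index_of_normal_right _ _
  have h2 : (Cx v).relIndex (St y) ∣ (Cx y).index := (relIndex_dvd_card _ _).trans (card_St_dvd y)
  have h3 := Nat.dvd_gcd h1 h2
  rw [hc.gcd_eq_one, Nat.dvd_one, relIndex_eq_one] at h3
  exact h3

theorem mem_center_of {g h : G} (hc : (Cx g).index.Coprime (Cx h).index)
    (he : (Cx (g * h)).index = (Cx h).index) (ho : (orderOf g).Coprime (Cx h).index) :
    g ∈ center G := by
  rw [mem_center_iff]
  intro a
  set z := g⁻¹ * (a * g * a⁻¹) with hz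
  have hzS : z ∈ St h := step_mem hc he a
  have hzg : z * g = g * z := mem_Cx.1 (St_le_Cx hc hzS)
  have h1 : a * g * a⁻¹ = g * z := by rw [hz]; group
  have h2 : z ^ orderOf g = 1 := by
    have h3 : (a * g * a⁻¹) ^ orderOf g = 1 := by rw [conj_pow, pow_orderOf_eq_one]; group
    have h4 : Commute g z := hzg.symm
    rwa [h1, h4.mul_pow, pow_orderOf_eq_one, one_mul] at h3
  have h5 := eq_one_of_pow ho h2 (pow_St hzS)
  rw [h5, mul_one, mul_inv_eq_iff_eq_mul] at h1
  exact h1

end fin

end Cfsg.Agent.Mdx.CC
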