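import Cfsg.Agent.Mdx.CC1

set_option autoImplicit false

namespace Cfsg.Agent.Mdx.CC

open Subgroup Cfsg.Agent.H72 Cfsg.Agent.QBaer
open scoped Pointwise

variable {G : Type*} [Group G]

/-- The situation: `m > n` are the two largest class sizes, coprime, `x` has class size `n` and
order prime to `n`. -/
structure Hyp (m n : ℕ) (x : G) : Prop where
  hmn : n < m
  hn : 1 < n
  hcop : m.Coprime n
  top : ∀ z : G, (Cx z).index ≤ m
  second : ∀ z : G, (Cx z).index < m → (Cx z).index ≤ n
  hx : (Cx x).index = n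
  ox : (orderOf x).Coprime n

variable [Finite G] {m n : ℕ} {x : G} (S : Hyp m n x)

include S

theorem Hyp.not_dvd : ¬ n ∣ m := by
  intro h
  have h1 := Nat.dvd_gcd h (dvd_refl n)
  rw [S.hcop.gcd_eq_one, Nat.dvd_one] at h1
  have := S.hn
  omega

theorem Hyp.of_dvd {z : G} (h : n ∣ (Cx z).index) : (Cx z).index = n := by
  have h0 : (Cx z).index ≠ 0 := index_ne_zero_of_finite
  have h1 : n ≤ (Cx z).index := Nat.le_of_dvd (Nat.pos_of_ne_zero h0) h
  have h2 := S.top z
  rcases Nat.lt_or_eq_of_le h2 with h3 | h3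
  · exact le_antisymm (S.second z h3) h1
  · exact absurd (h3 ▸ h) S.not_dvd

theorem Hyp.of_dvd' {z : G} (h : m ∣ (Cx z).index) : (Cx z).index = m := by
  have h0 : (Cx z).index ≠ 0 := index_ne_zero_of_finite
  exact le_antisymm (S.top z) (Nat.le_of_dvd (Nat.pos_of_ne_zero h0) h)

theorem Hyp.of_le {z : G} (h : n ≤ (Cx z).index) : (Cx z).index = n ∨ (Cx z).index = m := by
  rcases Nat.lt_or_eq_of_le (S.top z) with h3 | h3
  · exact Or.inl (le_antisymm (S.second z h3) h)
  · exact Or.inr h3

theorem Hyp.mul_top {g h : G} (hg : (Cx g).index.Coprime m) (hh : (Cx h).index = m) :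
    (Cx (g * h)).index = m := by
  apply le_antisymm (S.top _)
  have := index_le_mul (g := g) (h := h) (by rw [hh]; exact hg)
  rwa [hh] at this

theorem Hyp.step {g y : G} (hg : (Cx g).index.Coprime m) (hy : (Cx y).index = m) (a : G) :
    g⁻¹ * (a * g * a⁻¹) ∈ St y :=
  step_mem (by rw [hy]; exact hg) (by rw [S.mul_top hg hy, hy]) a

theorem Hyp.x_cop : (Cx x).index.Coprime m := by rw [S.hx]; exact S.hcop.symm

/-- an element of class size prime to `m` and order prime to `m` is central -/
theorem Hyp.central_m {g y : G} (hy : (Cx y).index = m) (hg : (Cx g).index.Coprime m)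
    (ho : (orderOf g).Coprime m) : g ∈ center G :=
  mem_center_of (h := y) (by rw [hy]; exact hg) (by rw [S.mul_top hg hy, hy]) (by rw [hy]; exact ho)

theorem index_dvd_of_Cx_le {a b : G} (h : Cx a ≤ Cx b) : (Cx b).index ∣ (Cx a).index :=
  index_dvd_of_le h

theorem eq_of_le_of_index {a b : G} (h : Cx a ≤ Cx b) (he : (Cx a).index = (Cx b).index) :
    Cx a = Cx b := by
  apply eq_of_le_of_card_ge h
  have h1 := (Cx a).card_mul_index
  have h2 := (Cx b).card_mul_index
  rw [he] at h1
  have h3 : (Cx b).index ≠ 0 := index_ne_zero_of_finite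
  exact (Nat.eq_of_mul_eq_mul_right (Nat.pos_of_ne_zero h3) (h1.trans h2.symm)).ge

/-- Claim 1: an element of class size `m` does not commute with `x`. -/
theorem Hyp.not_comm {y : G} (hy : (Cx y).index = m) : ¬ (y * x = x * y) := by
  intro hxy
  obtain ⟨i, j, k, hij, hi, hj⟩ := exists_split n y
  set y₁ := y ^ i with hy₁
  set y₂ := y ^ j with hy₂
  have hc1 : y₁ * x = x * y₁ := by
    have h1 : Commute y x := hxy
    exact (h1.pow_left i).eq
  have hox : (orderOf x).Coprime (orderOf y₁) :=
    Nat.Coprime.coprime_dvd_right hi (Nat.Coprime.pow_right k S.ox)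
  have h1 : Cx (x * y₁) = Cx x ⊓ Cx y₁ := Cx_mul_of_coprime hc1.symm hox
  have hk1 : (Cx y₁).index ∣ m := by rw [← hy]; exact index_dvd_of_le (Cx_pow_le y i)
  have h2 : (Cx (x * y₁)).index = n * (Cx y₁).index := by
    rw [h1, inf_index_of_coprime, S.hx]
    rw [S.hx]
    exact Nat.Coprime.coprime_dvd_right hk1 S.hcop.symm
  have h3 := S.of_dvd (z := x * y₁) (by rw [h2]; exact dvd_mul_right _ _)
  have h4 : (Cx y₁).index = 1 := by
    rw [h2] at h3
    have hn0 := S.hn
    exact Nat.eq_of_mul_eq_mul_left (show 0 < n by omega) (by rw [h3, mul_one])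
  have h5 : y₁ ∈ center G := Cx_index_eq_one_iff.1 h4
  have h6 : Cx y₂ = Cx y := by
    ext g
    rw [mem_Cx, mem_Cx]
    have h7 := mem_center_iff.1 h5 g
    constructor
    · intro h
      rw [hij]
      calc g * (y₁ * y₂) = (g * y₁) * y₂ := by group
        _ = y₁ * (g * y₂) := by rw [h7]; group
        _ = y₁ * y₂ * g := by rw [h]; group
    · intro h
      have : Commute g y := h
      exact (this.pow_right j).eq
  -- a prime dividing `n`
  obtain ⟨q, hq, hqn⟩ := Nat.exists_prime_and_dvd (show n ≠ 1 by have := S.hn; omega)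
  haveI := Fact.mk hq
  set H := Cx y with hH
  obtain ⟨Q⟩ : Nonempty (Sylow q H) := inferInstance
  have hQ : ∀ b : H, b ∈ (Q : Subgroup H) → (b : G) ∈ Cx x := by
    intro b hb
    have hbq : ∃ e, orderOf (b : G) = q ^ e := by
      obtain ⟨e, he⟩ := IsPGroup.iff_orderOf.1 Q.2 ⟨b, hb⟩
      refine ⟨e, ?_⟩
      rw [← he, Subgroup.orderOf_mk, Subgroup.orderOf_coe]
    obtain ⟨e, he⟩ := hbq
    have hby : y₂ * b = b * y₂ := by
      have h8 : (b : G) ∈ Cx y₂ := by rw [h6]; exact b.2
      exact (mem_Cx.1 h8).symm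
    have ho : (orderOf y₂).Coprime (orderOf (b : G)) := by
      rw [he]
      apply Nat.Coprime.pow_right
      exact Nat.Coprime.coprime_dvd_right hqn hj
    have h9 := Cx_mul_of_coprime hby ho
    have h10 := S.of_dvd' (z := y₂ * b) (by
      have : (Cx y₂).index ∣ (Cx (y₂ * (b : G))).index := by
        rw [h9]; exact index_dvd_of_le inf_le_left
      rwa [h6, hy] at this)
    have h11 : Cx (y₂ * (b : G)) = Cx y₂ := by
      apply eq_of_le_of_index S
      · rw [h9]; exact inf_le_left
      · rw [h10, h6, hy]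
    have h12 : Cx y₂ ≤ Cx (b : G) := by
      rw [← h11, h9]; exact inf_le_right
    have h13 : x ∈ Cx (b : G) := h12 (by rw [h6, hH, mem_Cx]; exact hxy.symm)
    rw [mem_Cx] at h13 ⊢
    exact h13.symm
  have hle : (Q : Subgroup H) ≤ (Cx x).subgroupOf H := fun b hb => hQ b hb
  have h14 : (Cx x).relIndex H = n := by
    rw [relIndex_eq_index_of_coprime, S.hx]
    rw [S.hx, hy]; exact S.hcop.symm
  have h15 : ((Cx x).subgroupOf H).index ∣ (Q : Subgroup H).index := index_dvd_of_le hle
  have h16 : n ∣ (Q : Subgroup H).index := by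
    rw [← h14]; exact h15
  exact Q.not_dvd_index (hqn.trans h16)

/-- `y ^ n` commutes with `x`. -/
theorem Hyp.pow_comm {y : G} (hy : (Cx y).index = m) : y ^ n ∈ Cx x := by
  set H := Cx y with hH
  set W := H ⊓ Cx x with hW
  have h1 : W.relIndex H = n := by
    rw [hW, inf_relIndex_left, relIndex_eq_index_of_coprime, S.hx]
    rw [S.hx, hy]; exact S.hcop.symm
  set T := zpowers y ⊔ W with hT
  have hyH : y ∈ H := by rw [hH, mem_Cx]
  have hTH : T ≤ H := sup_le (zpowers_le.2 hyH) inf_le_left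
  have hn : T ≤ normalizer (W : Set G) := by
    refine sup_le ?_ le_normalizer
    rw [zpowers_le, mem_normalizer_iff]
    have key : ∀ w ∈ H, y * w * y⁻¹ = w := by
      intro w hw
      rw [hH, mem_Cx] at hw
      rw [← hw]; group
    intro w
    constructor
    · intro hw
      rw [key w hw.1]; exact hw
    · intro hw
      have h2 : w ∈ H := by
        have h3 : y⁻¹ * (y * w * y⁻¹) * y ∈ H := mul_mem (mul_mem (inv_mem hyH) hw.1) hyH
        rwa [show y⁻¹ * (y * w * y⁻¹) * y = w by group] at h3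
      rwa [key w h2] at hw
  have hWT : W ≤ T := le_sup_right
  haveI hWn : (W.subgroupOf T).Normal := (normal_subgroupOf_iff_le_normalizer hWT).2 hn
  have h2 : W.relIndex T * T.relIndex H = n := by
    rw [relIndex_mul_relIndex _ _ _ hWT hTH, h1]
  have h3 := (W.subgroupOf T).pow_index_mem ⟨y, mem_sup_left (mem_zpowers y)⟩
  have h4 : y ^ W.relIndex T ∈ W := h3
  have h5 : y ^ n ∈ W := by
    rw [← h2, pow_mul]
    exact pow_mem h4 _
  exact h5.2

/-- the `n`-part of an element of class size `m` has the same centralizer -/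
theorem Hyp.exists_w {y : G} (hy : (Cx y).index = m) :
    ∃ w : G, (∃ k, orderOf w ∣ n ^ k) ∧ Cx w = Cx y := by
  obtain ⟨i, j, k, hij, hi, hj⟩ := exists_split n y
  set w := y ^ i with hw
  set b := y ^ j with hb
  refine ⟨w, ⟨k, hi⟩, ?_⟩
  have hbx : b ∈ Cx x := by
    have h1 : b ^ n ∈ Cx x := by
      rw [hb, ← pow_mul, mul_comm, pow_mul]
      exact pow_mem (S.pow_comm hy) j
    have h2 : b ∈ zpowers (b ^ n) := by
      rw [mem_zpowers_pow_iff]
      exact hj.symm
    exact (zpowers_le.2 h1) h2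
  have hwx : w ∉ Cx x := by
    intro h
    have h1 : y ∈ Cx x := by rw [hij]; exact mul_mem h hbx
    exact S.not_comm hy (mem_Cx.1 h1)
  have hkw : (Cx w).index ∣ m := by rw [← hy]; exact index_dvd_of_le (Cx_pow_le y i)
  have hcop : (Cx x).index.Coprime (Cx w).index := by
    rw [S.hx]
    exact Nat.Coprime.coprime_dvd_right hkw S.hcop.symm
  have h1 := index_le_mul' hcop
  rw [S.hx] at h1
  have hwm : (Cx w).index = m := by
    rcases S.of_le h1 with h2 | h2
    · exfalso
      have h3 : (Cx (x * w)).index.Coprime m := by rw [h2]; exact S.hcop.symm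
      have h4 : St y ≤ Cx (x * w) := St_le_Cx (by rw [hy]; exact h3)
      have h5 : St y ≤ Cx x := St_le_Cx (by rw [hy]; exact S.x_cop)
      have hz := S.step S.x_cop hy w
      set z := x⁻¹ * (w * x * w⁻¹) with hzd
      have hzx := mem_Cx.1 (h5 hz)
      have hzxw := mem_Cx.1 (h4 hz)
      have hzw : z * w = w * z := by
        apply mul_left_cancel (a := x)
        calc x * (z * w) = (x * z) * w := by group
          _ = z * (x * w) := by rw [← hzx]; group
          _ = x * (w * z) := by rw [hzxw]; group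
      have h6 : w * x * w⁻¹ = x * z := by rw [hzd]; group
      have h7 := conj_pow_mul h6 hzw (orderOf w)
      rw [pow_orderOf_eq_one, one_mul, inv_one, mul_one] at h7
      have h8 : z ^ orderOf w = 1 := (left_eq_mul.1 h7)
      have h9 : z ^ m = 1 := by rw [← hy]; exact pow_St hz
      have h10 : z = 1 := eq_one_of_pow (Nat.Coprime.coprime_dvd_left hi
        (Nat.Coprime.pow_left k S.hcop.symm)) h8 h9
      rw [h10, mul_one, mul_inv_eq_iff_eq_mul] at h6
      exact hwx (mem_Cx.2 h6)
    · have h3 := S.mul_top (g := x⁻¹) (h := x * w) (by rw [Cx_inv]; exact S.x_cop) h2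
      rwa [inv_mul_cancel_left] at h3
  exact (eq_of_le_of_index S (Cx_pow_le y i) (by rw [hy, hwm])).symm

/-- F9 -/
theorem Hyp.inf_le_center {y : G} (hy : (Cx y).index = m) : Cx x ⊓ Cx y ≤ center G := by
  obtain ⟨w, ⟨k, hk⟩, hwy⟩ := S.exists_w hy
  have hwm : (Cx w).index = m := by rw [hwy, hy]
  rw [← hwy]
  intro u hu
  obtain ⟨i, j, l, hij, hi, hj⟩ := exists_split n u
  have hu1 : u ^ i ∈ Cx x ⊓ Cx w := pow_mem hu i
  have hu2 : u ^ j ∈ Cx x ⊓ Cx w := pow_mem hu j
  set u₁ := u ^ i with hu₁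
  set u₂ := u ^ j with hu₂
  have hc1 : u₁ ∈ center G := by
    have h1 : x * u₁ = u₁ * x := (mem_Cx.1 hu1.1).symm
    have h2 := Cx_mul_of_coprime h1 (Nat.Coprime.coprime_dvd_right hi
      (Nat.Coprime.pow_right l S.ox))
    have h3 := S.of_dvd (z := x * u₁) (by
      rw [h2, ← S.hx]; exact index_dvd_of_le inf_le_left)
    have h4 : Cx (x * u₁) = Cx x := by
      apply eq_of_le_of_index S
      · rw [h2]; exact inf_le_left
      · rw [h3, S.hx]
    have h5 : Cx x ≤ Cx u₁ := by rw [← h4, h2]; exact inf_le_right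
    have h6 : (Cx u₁).index ∣ n := by rw [← S.hx]; exact index_dvd_of_le h5
    apply S.central_m hy
    · exact Nat.Coprime.coprime_dvd_left h6 S.hcop.symm
    · exact Nat.Coprime.coprime_dvd_left hi (Nat.Coprime.pow_left l S.hcop.symm)
  have hc2 : u₂ ∈ center G := by
    have h1 : w * u₂ = u₂ * w := (mem_Cx.1 hu2.2).symm
    have h2 := Cx_mul_of_coprime h1 (Nat.Coprime.coprime_dvd_left hk
      (Nat.Coprime.pow_left k hj.symm))
    have h3 := S.of_dvd' (z := w * u₂) (by
      rw [h2, ← hwm]; exact index_dvd_of_le inf_le_left)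
    have h4 : Cx (w * u₂) = Cx w := by
      apply eq_of_le_of_index S
      · rw [h2]; exact inf_le_left
      · rw [h3, hwm]
    have h5 : Cx w ≤ Cx u₂ := by rw [← h4, h2]; exact inf_le_right
    have h6 : (Cx u₂).index ∣ m := by rw [← hwm]; exact index_dvd_of_le h5
    have h7 : (Cx u₂).index.Coprime (Cx x).index := by
      rw [S.hx]; exact Nat.Coprime.coprime_dvd_left h6 S.hcop
    have h8 := index_le_mul h7
    rw [S.hx] at h8
    rcases S.of_le h8 with h9 | h9
    · exact mem_center_of h7 (by rw [h9, S.hx]) (by rw [S.hx]; exact hj)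
    · exfalso
      apply S.not_comm h9
      have h10 := mem_Cx.1 hu2.1
      calc u₂ * x * x = (x * u₂) * x := by rw [h10]
        _ = x * (u₂ * x) := by group
  rw [hij]
  exact mul_mem hc1 hc2

end Cfsg.Agent.Mdx.CC
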