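import Cfsg.Agent.Mdx.CC2
import Cfsg.Agent.Frob.Basic
import Cfsg.Agent.Solv.Core

set_option autoImplicit false

namespace Cfsg.Agent.Mdx.CC

open Subgroup Cfsg.Agent.H72 Cfsg.Agent.QBaer
open scoped Pointwise

theorem relIndex_le_index' {G : Type*} [Group G] [Finite G] (H K : Subgroup G) :
    H.relIndex K ≤ H.index := by
  have h := relIndex_le_of_le_right (H := H) (K := K) (L := ⊤) le_top
    (by rw [relIndex_top_right]; exact index_ne_zero_of_finite)
  rwa [relIndex_top_right] at h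

variable {G : Type*} [Group G] [Finite G] {m n : ℕ} {x : G} (S : Hyp m n x)

include S

theorem Hyp.center_eq {y : G} (hy : (Cx y).index = m) : center G = Cx x ⊓ Cx y :=
  le_antisymm (le_inf (center_le_Cx x) (center_le_Cx y)) (S.inf_le_center hy)

theorem Hyp.relIndex_y {y : G} (hy : (Cx y).index = m) : (center G).relIndex (Cx y) = n := by
  rw [S.center_eq hy, inf_relIndex_right, relIndex_eq_index_of_coprime, S.hx]
  rw [hy]; exact S.x_cop

theorem Hyp.relIndex_x {y : G} (hy : (Cx y).index = m) : (center G).relIndex (Cx x) = m := by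
  rw [S.center_eq hy, inf_relIndex_left, relIndex_eq_index_of_coprime, hy]
  rw [hy]; exact S.x_cop.symm

theorem Hyp.pow_n {y : G} (hy : (Cx y).index = m) {h : G} (hh : h ∈ Cx y) : h ^ n ∈ center G := by
  have h1 := ((center G).subgroupOf (Cx y)).pow_index_mem ⟨h, hh⟩
  have h2 : h ^ (center G).relIndex (Cx y) ∈ center G := h1
  rwa [S.relIndex_y hy] at h2

theorem Hyp.pow_m {y : G} (hy : (Cx y).index = m) {h : G} (hh : h ∈ Cx x) : h ^ m ∈ center G := by
  have h1 := ((center G).subgroupOf (Cx x)).pow_index_mem ⟨h, hh⟩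
  have h2 : h ^ (center G).relIndex (Cx x) ∈ center G := h1
  rwa [S.relIndex_x hy] at h2

/-- F15 -/
theorem Hyp.comm_of {y : G} (hy : (Cx y).index = m) {l h z : G} (hl : l ∈ Cx x) (hh : h ∈ Cx y)
    (hz : z ∈ center G) (he : h * l * h⁻¹ = l * z) : h * l = l * h := by
  have hz' := mem_center_iff.1 hz
  have h1 := conj_pow_mul he (hz' h).symm n
  have h2 := mem_center_iff.1 (S.pow_n hy hh) l
  have h3 : z ^ n = 1 := by
    have h4 : h ^ n * l * (h ^ n)⁻¹ = l := by rw [← h2]; group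
    rw [h4] at h1
    exact left_eq_mul.1 h1
  have h5 : z ^ m = 1 := by
    have h6 := mem_center_iff.1 (S.pow_m hy hl) h
    have h7 : (h * l * h⁻¹) ^ m = l ^ m := by
      rw [conj_pow, h6]; group
    rw [he] at h7
    have h8 : Commute l z := hz' l
    rw [h8.mul_pow] at h7
    exact mul_eq_left.1 h7
  have h9 : z = 1 := eq_one_of_pow S.hcop h5 h3
  rw [h9, mul_one, mul_inv_eq_iff_eq_mul] at he
  exact he

variable {y : G} (hy : (Cx y).index = m) {N : ℕ} (oy : orderOf y ∣ n ^ N)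

include hy oy

theorem Hyp.St_inf : St y ⊓ Cx y = ⊥ := by
  rw [eq_bot_iff]
  rintro z ⟨hz, hzy⟩
  rw [mem_bot]
  have hz' : z * y = y * z := mem_Cx.1 hzy
  have h1 : z * y ∈ Cl y := mem_stab_iff.1 hz y (mem_Cl_self y)
  obtain ⟨a, ha⟩ := h1
  have h2 : (z * y) ^ orderOf y = 1 := by
    have ha' : a * y * a⁻¹ = z * y := ha
    rw [← ha', conj_pow, pow_orderOf_eq_one]; group
  have h3 : Commute z y := hz'
  rw [h3.mul_pow, pow_orderOf_eq_one, mul_one] at h2
  have h4 : z ^ m = 1 := by rw [← hy]; exact pow_St hz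
  exact eq_one_of_pow (Nat.Coprime.coprime_dvd_left oy (Nat.Coprime.pow_left N S.hcop.symm)) h2 h4

/-- F12 -/
theorem Hyp.index_h {h : G} (hh : h ∈ Cx y) (hz : h ∉ center G) : (Cx h).index = m := by
  have hMx : St y ≤ Cx x := St_le_Cx (by rw [hy]; exact S.x_cop)
  have h1 : Cx (x * h) ⊓ Cx y ≤ center G := by
    rintro a ⟨ha, hay⟩
    have h2 := mem_Cx.1 ha
    have h3 : x⁻¹ * (a * x * a⁻¹) ∈ St y := S.step S.x_cop hy a
    have h4 : x⁻¹ * (a * x * a⁻¹) = h * (a * h * a⁻¹)⁻¹ := by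
      have h5 : (a * x * a⁻¹) * (a * h * a⁻¹) = x * h := by
        calc (a * x * a⁻¹) * (a * h * a⁻¹) = a * (x * h) * a⁻¹ := by group
          _ = x * h := by rw [h2]; group
      calc x⁻¹ * (a * x * a⁻¹) = x⁻¹ * ((a * x * a⁻¹) * (a * h * a⁻¹)) * (a * h * a⁻¹)⁻¹ := by group
        _ = h * (a * h * a⁻¹)⁻¹ := by rw [h5]; group
    have h6 : x⁻¹ * (a * x * a⁻¹) ∈ Cx y := by
      rw [h4]
      exact mul_mem hh (inv_mem (mul_mem (mul_mem hay hh) (inv_mem hay)))
    have h7 : x⁻¹ * (a * x * a⁻¹) ∈ St y ⊓ Cx y := ⟨h3, h6⟩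
    rw [S.St_inf hy oy, mem_bot, inv_mul_eq_one, eq_comm, mul_inv_eq_iff_eq_mul] at h7
    rw [S.center_eq hy]
    exact ⟨mem_Cx.2 h7, hay⟩
  have h2 : n ≤ (Cx (x * h)).index := by
    have h3 : (center G).relIndex (Cx y) ≤ (Cx (x * h) ⊓ Cx y).relIndex (Cx y) :=
      relIndex_le_of_le_left h1 index_ne_zero_of_finite
    rw [S.relIndex_y hy, inf_relIndex_right] at h3
    exact h3.trans (relIndex_le_index' _ _)
  rcases S.of_le h2 with h3 | h3
  · exfalso
    have h4 : St y ≤ Cx (x * h) := St_le_Cx (by rw [h3, hy]; exact S.hcop.symm)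
    have hzS := S.step S.x_cop hy h
    set z := x⁻¹ * (h * x * h⁻¹) with hzd
    have hzx := mem_Cx.1 (hMx hzS)
    have hzxh := mem_Cx.1 (h4 hzS)
    have hzh : z * h = h * z := by
      apply mul_left_cancel (a := x)
      calc x * (z * h) = (x * z) * h := by group
        _ = z * (x * h) := by rw [← hzx]; group
        _ = x * (h * z) := by rw [hzxh]; group
    have h6 : h * x * h⁻¹ = x * z := by rw [hzd]; group
    have h7 := conj_pow_mul h6 hzh n
    have h8 := mem_center_iff.1 (S.pow_n hy hh) x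
    have h9 : h ^ n * x * (h ^ n)⁻¹ = x := by rw [← h8]; group
    rw [h9] at h7
    have h10 : z ^ n = 1 := left_eq_mul.1 h7
    have h11 : z ^ m = 1 := by rw [← hy]; exact pow_St hzS
    have h12 : z = 1 := eq_one_of_pow S.hcop h11 h10
    rw [h12, mul_one, mul_inv_eq_iff_eq_mul] at h6
    apply hz
    rw [S.center_eq hy]
    exact ⟨mem_Cx.2 h6, hh⟩
  · have h4 := S.mul_top (g := x⁻¹) (h := x * h) (by rw [Cx_inv]; exact S.x_cop) h3
    rwa [inv_mul_cancel_left] at h4

/-- F13 -/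
theorem Hyp.index_l {u : G} (hu : u ∈ Cx x) (hz : u ∉ center G) : (Cx u).index = n := by
  have h1 : Cx u ⊓ Cx y ≤ center G := by
    rintro h ⟨hhu, hhy⟩
    by_contra hh
    have h2 := S.index_h hy oy hhy hh
    apply hz
    apply S.inf_le_center h2
    exact ⟨hu, mem_Cx.2 (mem_Cx.1 hhu).symm⟩
  have h2 : n ≤ (Cx u).index := by
    have h3 : (center G).relIndex (Cx y) ≤ (Cx u ⊓ Cx y).relIndex (Cx y) :=
      relIndex_le_of_le_left h1 index_ne_zero_of_finite
    rw [S.relIndex_y hy, inf_relIndex_right] at h3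
    exact h3.trans (relIndex_le_index' _ _)
  rcases S.of_le h2 with h3 | h3
  · exact h3
  · exact absurd (mem_Cx.1 hu) (S.not_comm h3)

theorem Hyp.cop_l {u : G} (hu : u ∈ Cx x) : (Cx u).index.Coprime m := by
  by_cases hz : u ∈ center G
  · rw [Cx_index_eq_one_iff.2 hz]; exact Nat.coprime_one_left _
  · rw [S.index_l hy oy hu hz]; exact S.hcop.symm

/-- F14 -/
theorem Hyp.normal : (Cx x).Normal := by
  constructor
  intro u hu a
  have h1 := S.step (S.cop_l hy oy hu) hy a
  have h2 : St y ≤ Cx x := St_le_Cx (by rw [hy]; exact S.x_cop)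
  have h3 := mul_mem hu (h2 h1)
  rwa [mul_inv_cancel_left] at h3

/-- F16 -/
theorem Hyp.L_le : Cx x ≤ center G ⊔ St y := by
  have hMx : St y ≤ Cx x := St_le_Cx (by rw [hy]; exact S.x_cop)
  have hMn := stab_normal y
  have hcard : m ≤ Nat.card (St y) := by
    rw [← S.relIndex_x hy]
    have hwd : ∀ a b : ↥(Cx x), QuotientGroup.leftRel ((center G).subgroupOf (Cx x)) a b →
        ((a : G)⁻¹ * (y * a * y⁻¹)) = ((b : G)⁻¹ * (y * b * y⁻¹)) := by
      intro a b hab
      rw [QuotientGroup.leftRel_apply] at hab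
      have h1 : (a : G)⁻¹ * b ∈ center G := hab
      have h2 := mem_center_iff.1 h1
      have h3 : (b : G) = a * ((a : G)⁻¹ * b) := by group
      set c := (a : G)⁻¹ * b with hc
      rw [h3]
      calc (a : G)⁻¹ * (y * a * y⁻¹) = c⁻¹ * c * ((a : G)⁻¹ * (y * a * y⁻¹)) := by group
        _ = c⁻¹ * (c * ((a : G)⁻¹ * (y * a * y⁻¹))) := by group
        _ = c⁻¹ * (((a : G)⁻¹ * (y * a * y⁻¹)) * c) := by rw [h2]
        _ = c⁻¹ * (a : G)⁻¹ * (y * a * (y⁻¹ * c)) := by group
        _ = (a * c)⁻¹ * (y * (a * c) * y⁻¹) := by rw [h2 y⁻¹]; group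
    let f : ↥(Cx x) ⧸ (center G).subgroupOf (Cx x) → St y := fun q => Quotient.liftOn' q
      (fun a => (⟨(a : G)⁻¹ * (y * a * y⁻¹), S.step (S.cop_l hy oy a.2) hy y⟩ : St y))
      (fun a b hab => Subtype.ext (hwd a b hab))
    have hf : Function.Injective f := by
      intro p q
      induction p using Quotient.inductionOn' with
      | h a =>
        induction q using Quotient.inductionOn' with
        | h b =>
          intro h
          have h' : (a : G)⁻¹ * (y * a * y⁻¹) = (b : G)⁻¹ * (y * b * y⁻¹) :=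
            congrArg Subtype.val h
          apply Quotient.sound'
          rw [QuotientGroup.leftRel_apply]
          change (a : G)⁻¹ * b ∈ center G
          have h1 : ((b : G) * (a : G)⁻¹) * y = y * ((b : G) * (a : G)⁻¹) := by
            have h2 : (b : G) * (a : G)⁻¹ * (y * a * y⁻¹) = y * b * y⁻¹ := by
              calc (b : G) * (a : G)⁻¹ * (y * a * y⁻¹)
                  = (b : G) * ((a : G)⁻¹ * (y * a * y⁻¹)) := by group
                _ = y * b * y⁻¹ := by rw [h']; group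
            calc ((b : G) * (a : G)⁻¹) * y
                = (b : G) * (a : G)⁻¹ * (y * a * y⁻¹) * (y * (a : G)⁻¹) := by group
              _ = y * ((b : G) * (a : G)⁻¹) := by rw [h2]; group
          have h3 : (b : G) * (a : G)⁻¹ ∈ center G := by
            rw [S.center_eq hy]
            exact ⟨(Cx x).mul_mem b.2 ((Cx x).inv_mem a.2), mem_Cx.2 h1⟩
          have h4 := mem_center_iff.1 h3 (a : G)⁻¹
          have h5 : (a : G)⁻¹ * b = (b : G) * (a : G)⁻¹ := by
            calc (a : G)⁻¹ * b = ((a : G)⁻¹ * ((b : G) * (a : G)⁻¹)) * a := by group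
              _ = (b : G) * (a : G)⁻¹ := by rw [h4]; group
          rw [h5]; exact h3
    have := Nat.card_le_card_of_injective f hf
    exact this
  have hcard2 : Nat.card (St y) = m := by
    apply le_antisymm _ hcard
    have h1 := card_St_dvd y
    rw [hy] at h1
    exact Nat.le_of_dvd (by have := S.hn; have := S.hmn; omega) h1
  have hinf : center G ⊓ St y = ⊥ := by
    rw [eq_bot_iff, ← S.St_inf hy oy]
    exact le_inf inf_le_right (inf_le_left.trans (center_le_Cx y))
  have h1 := Solv.mul_card_sup_of_normal (center G) (St y)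
  rw [hinf, card_bot, mul_one, hcard2] at h1
  have h2 : center G ⊔ St y ≤ Cx x := sup_le (center_le_Cx x) hMx
  have h3 : Nat.card (Cx x) = Nat.card (center G) * m := by
    rw [← S.relIndex_x hy]
    have h4 := relIndex_mul_relIndex ⊥ (center G) (Cx x) bot_le (center_le_Cx x)
    rw [relIndex_bot_left, relIndex_bot_left] at h4
    exact h4.symm
  exact (eq_of_le_of_card_ge h2 (by rw [h1, h3])).ge

theorem Hyp.L_comm {a b : G} (ha : a ∈ Cx x) (hb : b ∈ Cx x) : a * b = b * a := by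
  have hMn := stab_normal y
  have h1 := S.L_le hy oy ha
  rw [mem_sup_of_normal_right] at h1
  obtain ⟨z, hz, t, ht, rfl⟩ := h1
  have h2 : St y ≤ Cx b := St_le_Cx (by rw [hy]; exact S.cop_l hy oy hb)
  have h3 := mem_Cx.1 (h2 ht)
  have h4 := mem_center_iff.1 hz
  calc z * t * b = z * (t * b) := by group
    _ = (z * b) * t := by rw [h3]; group
    _ = b * (z * t) := by rw [← h4]; group

/-- F17 -/
theorem Hyp.H_comm {a b : G} (ha : a ∈ Cx y) (hb : b ∈ Cx y) : a * b = b * a := by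
  by_cases hz : b ∈ center G
  · exact mem_center_iff.1 hz a
  have hLn := S.normal hy oy
  have h1 := S.index_h hy oy hb hz
  obtain ⟨c, hc, l, hl, rfl⟩ := exists_mul_of_coprime_index (H := Cx b) (K := Cx x)
    (by rw [h1, S.hx]; exact S.hcop) a
  have hcb := mem_Cx.1 hc
  -- the commutator lies in `L ⊓ H = Z`
  have h2 : (c * l) * b * (c * l)⁻¹ * b⁻¹ = c * (l * b * l⁻¹ * b⁻¹) * c⁻¹ := by
    have h3 : b⁻¹ * c⁻¹ = c⁻¹ * b⁻¹ := by
      rw [← mul_inv_rev, ← mul_inv_rev, hcb]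
    calc (c * l) * b * (c * l)⁻¹ * b⁻¹ = c * l * b * l⁻¹ * (c⁻¹ * b⁻¹) := by group
      _ = c * (l * b * l⁻¹ * b⁻¹) * c⁻¹ := by rw [← h3]; group
  have h3 : l * b * l⁻¹ * b⁻¹ ∈ Cx x := by
    have h4 := mul_mem hl (hLn.conj_mem _ (inv_mem hl) b)
    rwa [show l * (b * l⁻¹ * b⁻¹) = l * b * l⁻¹ * b⁻¹ by group] at h4
  have h4 : (c * l) * b * (c * l)⁻¹ * b⁻¹ ∈ center G := by
    rw [S.center_eq hy]
    refine ⟨?_, (Cx y).mul_mem ((Cx y).mul_mem ((Cx y).mul_mem ha hb) ((Cx y).inv_mem ha))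
      ((Cx y).inv_mem hb)⟩
    rw [h2]
    exact hLn.conj_mem _ h3 c
  have h5 : l * b * l⁻¹ * b⁻¹ ∈ center G := by
    rw [h2] at h4
    have h6 := (inferInstance : (center G).Normal).conj_mem _ h4 c⁻¹
    rwa [show c⁻¹ * (c * (l * b * l⁻¹ * b⁻¹) * c⁻¹) * c⁻¹⁻¹ = l * b * l⁻¹ * b⁻¹ by group] at h6
  have h6 : b * l * b⁻¹ = l * (l * b * l⁻¹ * b⁻¹)⁻¹ := by
    have h7 := mem_center_iff.1 (inv_mem h5) l
    rw [h7]; group
  have h7 := S.comm_of hy hl hb (inv_mem h5) h6
  calc c * l * b = c * (l * b) := by group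
    _ = (c * b) * l := by rw [← h7]; group
    _ = b * (c * l) := by rw [hcb]; group

end Cfsg.Agent.Mdx.CC
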