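import Cfsg.Agent.Mdx.CC3

set_option autoImplicit false

namespace Cfsg.Agent.Mdx.CC

open Subgroup Cfsg.Agent.H72 Cfsg.Agent.QBaer
open scoped Pointwise

variable {G : Type*} [Group G] [Finite G] {m n : ℕ} {x : G} (S : Hyp m n x)
variable {y : G} (hy : (Cx y).index = m) {N : ℕ} (oy : orderOf y ∣ n ^ N)

include S hy oy

theorem Hyp.Cx_eq {h : G} (hh : h ∈ Cx y) (hz : h ∉ center G) : Cx y = Cx h := by
  apply eq_of_le_of_index S
  · intro a ha
    exact mem_Cx.2 (S.H_comm hy oy ha hh)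
  · rw [hy, S.index_h hy oy hh hz]

theorem Hyp.mem_of_conj {g h : G} (hh : h ∈ Cx y) (hz : h ∉ center G)
    (hg : g⁻¹ * h * g ∈ Cx y) : g ∈ Cx y := by
  have hLn := S.normal hy oy
  have e1 := S.Cx_eq hy oy hh hz
  have hz' : g⁻¹ * h * g ∉ center G := by
    intro h1
    apply hz
    have := (inferInstance : (center G).Normal).conj_mem _ h1 g
    rwa [show g * (g⁻¹ * h * g) * g⁻¹ = h by group] at this
  have e2 := S.Cx_eq hy oy hg hz'
  have key : ∀ t ∈ Cx y, g * t * g⁻¹ ∈ Cx y := by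
    intro t ht
    rw [e2, mem_Cx] at ht
    rw [e1, mem_Cx]
    calc g * t * g⁻¹ * h = g * (t * (g⁻¹ * h * g)) * g⁻¹ := by group
      _ = h * (g * t * g⁻¹) := by rw [ht]; group
  obtain ⟨l, hl, a, ha, hla⟩ := exists_mul_of_coprime_index (H := Cx x) (K := Cx y)
    (by rw [hy]; exact S.x_cop) g
  have hyy : y ∈ Cx y := mem_Cx.2 rfl
  have h1 : l * y * l⁻¹ ∈ Cx y := by
    have h2 := key y hyy
    have h3 := mem_Cx.1 ha
    rw [hla] at h2
    rwa [show l * a * y * (l * a)⁻¹ = l * (a * y) * a⁻¹ * l⁻¹ by group, h3,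
      show l * (y * a) * a⁻¹ * l⁻¹ = l * y * l⁻¹ by group] at h2
  have h2 : l * y * l⁻¹ * y⁻¹ ∈ center G := by
    rw [S.center_eq hy]
    refine ⟨?_, (Cx y).mul_mem h1 ((Cx y).inv_mem hyy)⟩
    have h3 := mul_mem hl (hLn.conj_mem _ (inv_mem hl) y)
    rwa [show l * (y * l⁻¹ * y⁻¹) = l * y * l⁻¹ * y⁻¹ by group] at h3
  have h3 := S.comm_of hy (inv_mem hl) hyy h2 (by group)
  have h4 : l ∈ Cx y := by
    have h5 : l⁻¹ ∈ Cx y := mem_Cx.2 h3.symm
    exact (inv_mem_iff).1 h5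
  rw [hla]
  exact mul_mem h4 ha

theorem Hyp.frob : IsFrobeniusComplement ((Cx y).map (QuotientGroup.mk' (center G))) := by
  have hmem : ∀ g : G, QuotientGroup.mk' (center G) g ∈ (Cx y).map (QuotientGroup.mk' (center G)) →
      g ∈ Cx y := by
    rintro g ⟨h, hh, he⟩
    have h1 : h⁻¹ * g ∈ center G := QuotientGroup.eq.1 he
    have h2 : h * (h⁻¹ * g) ∈ Cx y := mul_mem hh (center_le_Cx y h1)
    rwa [mul_inv_cancel_left] at h2
  refine ⟨?_, ?_, ?_⟩
  · intro h
    have h1 : Cx y ≤ center G := by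
      rw [Subgroup.map_eq_bot_iff, QuotientGroup.ker_mk'] at h
      exact h
    have h2 := S.relIndex_y hy
    rw [relIndex_eq_one.2 h1] at h2
    have := S.hn
    omega
  · intro h
    have h1 : Cx y = ⊤ := by
      rw [eq_top_iff]
      intro g _
      apply hmem
      rw [h]; trivial
    rw [h1, index_top] at hy
    have := S.hn
    have := S.hmn
    omega
  · intro gb hgb
    obtain ⟨g, rfl⟩ := QuotientGroup.mk'_surjective _ gb
    rw [eq_bot_iff]
    rintro hb ⟨⟨h, hh, rfl⟩, hb2⟩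
    rw [mem_bot, QuotientGroup.mk'_apply, QuotientGroup.eq_one_iff]
    by_contra hz
    have h1 : QuotientGroup.mk' (center G) (g⁻¹ * h * g) ∈
        (Cx y).map (QuotientGroup.mk' (center G)) := by
      have hb3 := mem_pointwise_smul_iff_inv_smul_mem.1 hb2
      simpa [mul_assoc] using hb3
    have h2 := S.mem_of_conj hy oy hh hz (hmem _ h1)
    exact hgb ⟨g, h2, rfl⟩

theorem Hyp.kernel : frobeniusKernel ((Cx y).map (QuotientGroup.mk' (center G))) =
    ((Cx x).map (QuotientGroup.mk' (center G)) : Set (G ⧸ center G)) := by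
  have hLn := S.normal hy oy
  haveI : ((Cx x).map (QuotientGroup.mk' (center G))).Normal :=
    hLn.map _ (QuotientGroup.mk'_surjective _)
  rw [← Frob.coe_eq_frobeniusKernel (N := (Cx x).map (QuotientGroup.mk' (center G)))
    (S.frob hy oy)]
  apply isComplement'_of_disjoint_and_mul_eq_univ
  · rw [disjoint_def]
    rintro _ ⟨u, hu, rfl⟩ ⟨h, hh, he⟩
    have h1 : h⁻¹ * u ∈ center G := QuotientGroup.eq.1 he
    have h2 : u ∈ Cx y := by
      have h2 : h * (h⁻¹ * u) ∈ Cx y := mul_mem hh (center_le_Cx y h1)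
      rwa [mul_inv_cancel_left] at h2
    rw [QuotientGroup.mk'_apply, QuotientGroup.eq_one_iff]
    exact S.inf_le_center hy ⟨hu, h2⟩
  · rw [Set.eq_univ_iff_forall]
    intro gb
    obtain ⟨g, rfl⟩ := QuotientGroup.mk'_surjective _ gb
    obtain ⟨l, hl, a, ha, hla⟩ := exists_mul_of_coprime_index (H := Cx x) (K := Cx y)
      (by rw [hy]; exact S.x_cop) g
    exact ⟨_, ⟨l, hl, rfl⟩, _, ⟨a, ha, rfl⟩, by rw [hla]; rfl⟩

omit S hy oy in
theorem main (hmn : n < m) (hn : 1 < n) (hcop : m.Coprime n) (htop : ∀ z : G, (Cx z).index ≤ m)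
    (hsecond : ∀ z : G, (Cx z).index < m → (Cx z).index ≤ n)
    (x y : G) (hx : (Cx x).index = n) (hy : (Cx y).index = m) :
    IsMulCommutative (Cx x) ∧ IsMulCommutative (Cx y) ∧
    IsFrobeniusComplement ((Cx y).map (QuotientGroup.mk' (center G))) ∧
    frobeniusKernel ((Cx y).map (QuotientGroup.mk' (center G))) =
      ((Cx x).map (QuotientGroup.mk' (center G)) : Set (G ⧸ center G)) := by
  -- replace `x` by its `n'`-part
  obtain ⟨i, j, k, hij, hi, hj⟩ := exists_split n x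
  have hc1 : x ^ i ∈ center G := by
    have h6 : (Cx (x ^ i)).index ∣ n := by rw [← hx]; exact index_dvd_of_le (Cx_pow_le x i)
    have hg : (Cx (x ^ i)).index.Coprime (Cx y).index := by
      rw [hy]; exact Nat.Coprime.coprime_dvd_left h6 hcop.symm
    refine mem_center_of (h := y) hg ?_ ?_
    · rw [hy]
      apply le_antisymm (htop _)
      have := index_le_mul hg
      rwa [hy] at this
    · rw [hy]
      exact Nat.Coprime.coprime_dvd_left hi (Nat.Coprime.pow_left k hcop.symm)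
  have hCx : Cx (x ^ j) = Cx x := by
    ext g
    rw [mem_Cx, mem_Cx]
    have h7 := mem_center_iff.1 hc1 g
    constructor
    · intro h
      rw [hij]
      calc g * (x ^ i * x ^ j) = (g * x ^ i) * x ^ j := by group
        _ = x ^ i * (g * x ^ j) := by rw [h7]; group
        _ = x ^ i * x ^ j * g := by rw [h]; group
    · intro h
      have : Commute g x := h
      exact (this.pow_right j).eq
  have S : Hyp m n (x ^ j) := ⟨hmn, hn, hcop, htop, hsecond, by rw [hCx, hx], hj⟩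
  obtain ⟨w, ⟨N, hN⟩, hwy⟩ := S.exists_w hy
  have hwm : (Cx w).index = m := by rw [hwy, hy]
  rw [← hCx, ← hwy]
  refine ⟨⟨⟨fun a b => Subtype.ext (S.L_comm hwm hN a.2 b.2)⟩⟩,
    ⟨⟨fun a b => Subtype.ext (S.H_comm hwm hN a.2 b.2)⟩⟩, S.frob hwm hN, S.kernel hwm hN⟩

end Cfsg.Agent.Mdx.CC
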