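import Cfsg.Agent.H49.CharP
import Cfsg.Agent.S0542

/-!
Parabolic characteristic of subnormal subgroups.
-/

set_option autoImplicit false

namespace Cfsg.Agent.Mdx.PC

open Subgroup Cfsg Cfsg.Agent.H49

variable {G : Type*} [Group G] [Finite G] {p : ℕ} [hp : Fact p.Prime]

/-- The normalizer of a `p`-subgroup in a group of characteristic `p` has characteristic `p`. -/
theorem charP_normalizer {D R : Subgroup G}
    (hD : centralizer (pCore p ↥D : Set ↥D) ≤ pCore p ↥D) (hRD : R ≤ D) (hR : IsPGroup p R) :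
    centralizer (pCore p ↥(D ⊓ normalizer (R : Set G) : Subgroup G) : Set _) ≤
      pCore p ↥(D ⊓ normalizer (R : Set G) : Subgroup G) := by
  apply charP_of_coprime_eq_one
  set E := D ⊓ normalizer (R : Set G) with hE
  intro c hcE hcop hc
  set A := (pCore p E).map E.subtype with hA
  set P := (pCore p D).map D.subtype with hP
  have hDP : D ≤ normalizer (P : Set G) := le_normalizer.trans (normalizer_le_normalizer_pCoreOf p D)
  have hPp : IsPGroup p P := isPGroup_pCoreOf p D
  have hAp : IsPGroup p A := isPGroup_pCoreOf p E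
  have hAE : A ≤ E := pCoreOf_le p E
  have hPD : P ≤ D := pCoreOf_le p D
  have hRE : R ≤ E := le_inf hRD le_normalizer
  have hRA : R ≤ A := le_pCoreOf hRE inf_le_right hR
  have hcP : c ∈ centralizer (P : Set G) := by
    refine thompson_AB hAp hcop hc P hPp ((hAE.trans inf_le_left).trans hDP) (hDP hcE.1) ?_
    intro y hy
    have hyN : y ∈ normalizer (R : Set G) := by
      apply centralizer_le_normalizer' R
      rw [mem_centralizer_iff]
      intro r hr
      exact hy.2 r (hRA hr)
    have h1 : P ⊓ E ≤ A := by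
      refine le_pCoreOf inf_le_right ?_ (hPp.to_le inf_le_left)
      exact (le_inf (inf_le_left.trans hDP) le_normalizer).trans inf_normalizer_le_normalizer_inf
    exact hc y (h1 ⟨hy.1, hPD hy.1, hyN⟩)
  have h2 : (⟨c, hcE.1⟩ : D) ∈ pCore p D := by
    apply hD
    rw [mem_centralizer_iff]
    intro y hy
    exact Subtype.ext (mem_centralizer_iff.1 hcP _ ⟨y, hy, rfl⟩)
  have h3 : c ∈ P := ⟨_, h2, rfl⟩
  exact eq_one_of_coprime_of_pGroup hPp h3 hcop (pow_orderOf_eq_one c)

/-- If `z ∈ Z(O_p(L)) ∩ R`, `R ≤ L = N(R)`, and the centralizer of `z` has characteristic `p`, then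
`L` has characteristic `p`. -/
theorem charP_of_centralizer {R : Subgroup G} (hR : IsPGroup p R) {z : G} (hz : z ∈ R)
    (hRz : ∀ r ∈ R, r * z = z * r)
    (hD : centralizer (pCore p ↥(centralizer ({z} : Set G)) : Set _) ≤
      pCore p ↥(centralizer ({z} : Set G))) :
    centralizer (pCore p ↥(normalizer (R : Set G)) : Set ↥(normalizer (R : Set G))) ≤
      pCore p ↥(normalizer (R : Set G)) := by
  apply charP_of_coprime_eq_one
  set L := normalizer (R : Set G) with hL
  intro c hcL hcop hc
  set O := (pCore p L).map L.subtype with hO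
  set D := centralizer ({z} : Set G) with hDd
  have hRL : R ≤ L := le_normalizer
  have hRO : R ≤ O := le_pCoreOf hRL le_rfl hR
  have hRD : R ≤ D := by
    intro r hr
    rw [hDd, mem_centralizer_iff]
    rintro _ rfl
    exact (hRz r hr).symm
  have hE := charP_normalizer hD hRD hR
  set E := D ⊓ L with hEd
  set K := L ⊓ centralizer (O : Set G) with hK
  have hKE : K ≤ E := by
    refine le_inf ?_ inf_le_left
    intro k hk
    rw [hDd, mem_centralizer_iff]
    rintro _ rfl
    exact hk.2 _ (hRO hz)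
  have hLO : L ≤ normalizer (O : Set G) := le_normalizer.trans (normalizer_le_normalizer_pCoreOf p L)
  have hLC : L ≤ normalizer ((centralizer (O : Set G) : Subgroup G) : Set G) := by
    have key : ∀ l ∈ L, ∀ y ∈ centralizer (O : Set G), l * y * l⁻¹ ∈ centralizer (O : Set G) := by
      intro l hl y hy o ho
      have h4 : l⁻¹ * o * l ∈ O := by
        have := (mem_normalizer_iff.1 (inv_mem (hLO hl)) o).1 ho
        simpa using this
      have h5 := hy _ h4
      calc o * (l * y * l⁻¹) = l * ((l⁻¹ * o * l) * y) * l⁻¹ := by group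
        _ = l * (y * (l⁻¹ * o * l)) * l⁻¹ := by rw [h5]
        _ = l * y * l⁻¹ * o := by group
    intro l hl
    rw [mem_normalizer_iff]
    intro y
    refine ⟨key l hl y, fun h => ?_⟩
    have := key l⁻¹ (inv_mem hl) _ h
    rwa [show l⁻¹ * (l * y * l⁻¹) * l⁻¹⁻¹ = y by group] at this
  have hLK : L ≤ normalizer (K : Set G) :=
    (le_inf le_normalizer hLC).trans inf_normalizer_le_normalizer_inf
  have hKn : (K.subgroupOf E).Normal :=
    (normal_subgroupOf_iff_le_normalizer hKE).2 (inf_le_right.trans hLK)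
  have hKc : centralizer (pCore p ↥K : Set ↥K) ≤ pCore p ↥K :=
    charP_of_equiv (subgroupOfEquivOfLe hKE) (charP_of_isSubnormal hE _ hKn.isSubnormal)
  have hOK : (pCore p K).map K.subtype ≤ O := pCoreOf_le_pCoreOf inf_le_left hLK
  have hcK : c ∈ K := ⟨hcL, hc⟩
  have h2 : (⟨c, hcK⟩ : K) ∈ pCore p K := by
    apply hKc
    rw [mem_centralizer_iff]
    intro y hy
    exact Subtype.ext (hc _ (hOK ⟨y, hy, rfl⟩))
  have h3 : c ∈ (pCore p K).map K.subtype := ⟨_, h2, rfl⟩
  exact eq_one_of_coprime_of_pGroup (isPGroup_pCoreOf p K) h3 hcop (pow_orderOf_eq_one c)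

end Cfsg.Agent.Mdx.PC
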