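import Mathlib

/-!
Products of two regular unipotent maps: the reduction step.
-/

set_option autoImplicit false

namespace Cfsg.Agent.Mdx.RU

open LinearMap Module

variable {K V : Type*} [Field K] [AddCommGroup V] [Module K V]

/-- Projection onto `ker φ` along `e`. -/
noncomputable def qq (φ : V →ₗ[K] K) (e : V) (he : φ e = 1) : V →ₗ[K] ker φ :=
  LinearMap.codRestrict (ker φ) (LinearMap.id - φ.smulRight e) (by
    intro v; simp [he])

theorem coe_qq (φ : V →ₗ[K] K) (e : V) (he : φ e = 1) (v : V) :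
    (qq φ e he v : V) = v - φ v • e := rfl

theorem qq_coe (φ : V →ₗ[K] K) (e : V) (he : φ e = 1) (w : ker φ) : qq φ e he (w : V) = w := by
  apply Subtype.ext
  rw [coe_qq, show φ (w : V) = 0 from w.2, zero_smul, sub_zero]

theorem qq_e (φ : V →ₗ[K] K) (e : V) (he : φ e = 1) : qq φ e he e = 0 := by
  apply Subtype.ext
  rw [coe_qq, he, one_smul, sub_self]; rfl

/-- The reduced map on `ker φ`. -/
noncomputable def red (R : V →ₗ[K] V) (φ : V →ₗ[K] K) (e : V) (hRe : φ (R e) = 1) :
    ker φ →ₗ[K] ker φ :=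
  LinearMap.codRestrict (ker φ) ((R - (φ.comp R).smulRight (R e)).comp (ker φ).subtype) (by
    intro v; simp [hRe])

theorem coe_red (R : V →ₗ[K] V) (φ : V →ₗ[K] K) (e : V) (hRe : φ (R e) = 1) (v : ker φ) :
    (red R φ e hRe v : V) = R v - φ (R v) • R e := rfl

section Big

variable (R : V →ₗ[K] V) (φ : V →ₗ[K] K) (e : V) (he : φ e = 1)

/-- Extension of `B'` to `V` with `e ↦ R e`. -/
noncomputable def bigB (B' : ker φ →ₗ[K] ker φ) : V →ₗ[K] V :=
  φ.smulRight (R e) + (ker φ).subtype.comp (B'.comp (qq φ e he))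

/-- Extension of `C'` to `V` with `e ↦ e`. -/
noncomputable def bigC (C' : ker φ →ₗ[K] ker φ) : V →ₗ[K] V :=
  (φ + (φ.comp R).comp ((ker φ).subtype.comp (qq φ e he))).smulRight e +
    (ker φ).subtype.comp (C'.comp (qq φ e he))

theorem bigB_apply (B' : ker φ →ₗ[K] ker φ) (v : V) :
    bigB R φ e he B' v = φ v • R e + (B' (qq φ e he v) : V) := rfl

theorem bigC_apply (C' : ker φ →ₗ[K] ker φ) (v : V) :
    bigC R φ e he C' v = (φ v + φ (R (qq φ e he v : V))) • e + (C' (qq φ e he v) : V) := rfl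

variable {R φ e} (hRe : φ (R e) = 1)
include hRe

theorem big_comp {B' C' : ker φ →ₗ[K] ker φ} (h : red R φ e hRe = B'.comp C') :
    R = (bigB R φ e he B').comp (bigC R φ e he C') := by
  apply LinearMap.ext
  intro v
  have h1 : φ (bigC R φ e he C' v) = φ v + φ (R (qq φ e he v : V)) := by
    rw [bigC_apply, map_add, map_smul, he, show φ (C' (qq φ e he v) : V) = 0 from (C' _).2]
    simp
  have h2 : qq φ e he (bigC R φ e he C' v) = C' (qq φ e he v) := by
    rw [bigC_apply, map_add, map_smul, qq_e, smul_zero, zero_add, qq_coe]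
  rw [LinearMap.comp_apply, bigB_apply, h1, h2]
  have h3 : ((B' (C' (qq φ e he v)) : ker φ) : V) = R (qq φ e he v : V) - φ (R (qq φ e he v : V)) • R e := by
    rw [← coe_red R φ e hRe, h]; rfl
  rw [h3, coe_qq, map_sub, map_smul, map_sub, map_smul, hRe, add_smul]
  simp only [sub_smul]
  module

theorem bigB_sub (B' : ker φ →ₗ[K] ker φ) (v : V) :
    (bigB R φ e he B' - 1) v =
      ((φ v • (⟨R e - e, by rw [LinearMap.mem_ker, map_sub, hRe, he, sub_self]⟩ : ker φ) +
        (B' - 1) (qq φ e he v) : ker φ) : V) := by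
  rw [LinearMap.sub_apply, bigB_apply, Submodule.coe_add, Submodule.coe_smul, LinearMap.sub_apply,
    Submodule.coe_sub, Module.End.one_apply, Module.End.one_apply, coe_qq]
  module

theorem bigB_pow (B' : ker φ →ₗ[K] ker φ) (k : ℕ) (w : ker φ) :
    ((bigB R φ e he B' - 1) ^ k) (w : V) = (((B' - 1) ^ k) w : ker φ) := by
  induction k with
  | zero => rfl
  | succ k ih =>
    rw [pow_succ', pow_succ', Module.End.mul_apply, Module.End.mul_apply, ih, bigB_sub he hRe]
    rw [show φ ((((B' - 1) ^ k) w : ker φ) : V) = 0 from (((B' - 1) ^ k) w).2, zero_smul, zero_add,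
      qq_coe]

theorem bigB_pow_succ (B' : ker φ →ₗ[K] ker φ) (k : ℕ) (v : V) :
    ((bigB R φ e he B' - 1) ^ (k + 1)) v =
      ((φ v • ((B' - 1) ^ k) (⟨R e - e, by rw [LinearMap.mem_ker, map_sub, hRe, he, sub_self]⟩ : ker φ) +
        ((B' - 1) ^ (k + 1)) (qq φ e he v) : ker φ) : V) := by
  rw [pow_succ, Module.End.mul_apply, bigB_sub he hRe, bigB_pow he hRe, map_add, map_smul,
    pow_succ, Module.End.mul_apply]

omit hRe in
theorem bigC_sub (C' : ker φ →ₗ[K] ker φ) (v : V) :
    (bigC R φ e he C' - 1) v = φ (R (qq φ e he v : V)) • e + ((C' - 1) (qq φ e he v) : V) := by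
  rw [LinearMap.sub_apply, bigC_apply, LinearMap.sub_apply, Submodule.coe_sub, Module.End.one_apply,
    Module.End.one_apply, coe_qq]
  module

omit hRe in
theorem qq_bigC_pow (C' : ker φ →ₗ[K] ker φ) (k : ℕ) (v : V) :
    qq φ e he (((bigC R φ e he C' - 1) ^ k) v) = ((C' - 1) ^ k) (qq φ e he v) := by
  induction k with
  | zero => rfl
  | succ k ih =>
    rw [pow_succ', pow_succ', Module.End.mul_apply, Module.End.mul_apply, bigC_sub, map_add, map_smul,
      qq_e, smul_zero, zero_add, qq_coe, ih]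

omit hRe in
theorem bigC_pow_succ (C' : ker φ →ₗ[K] ker φ) (k : ℕ) (v : V) :
    ((bigC R φ e he C' - 1) ^ (k + 1)) v =
      φ (R (((C' - 1) ^ k) (qq φ e he v) : V)) • e + (((C' - 1) ^ (k + 1)) (qq φ e he v) : V) := by
  rw [pow_succ', Module.End.mul_apply, bigC_sub, qq_bigC_pow, pow_succ', Module.End.mul_apply]

end Big

/-- `R` is a product of two unipotent maps, regular in a strong sense. -/
def Fac (m : ℕ) (R : V →ₗ[K] V) (x : V) (y : V →ₗ[K] K) : Prop :=
  ∃ B C : V →ₗ[K] V, R = B.comp C ∧ (B - 1) ^ (m + 1) = 0 ∧ (C - 1) ^ (m + 1) = 0 ∧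
    ((B - 1) ^ m) x ≠ 0 ∧ ∃ v, y (((C - 1) ^ m) v) ≠ 0

theorem Fac.step {m : ℕ} {R : V →ₗ[K] V} {φ : V →ₗ[K] K} {e : V} (he : φ e = 1) (hRe : φ (R e) = 1)
    {x : V} {y : V →ₗ[K] K} (hx : φ x ≠ 0) (hy : y e ≠ 0)
    (h : Fac m (red R φ e hRe) (⟨R e - e, by rw [LinearMap.mem_ker, map_sub, hRe, he, sub_self]⟩ : ker φ)
      ((φ.comp R).comp (ker φ).subtype)) : Fac (m + 1) R x y := by
  obtain ⟨B', C', h1, h2, h3, h4, v, h5⟩ := h
  refine ⟨bigB R φ e he B', bigC R φ e he C', big_comp he hRe h1, ?_, ?_, ?_, ?_⟩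
  · apply LinearMap.ext
    intro w
    rw [bigB_pow_succ he hRe, h2, pow_succ, h2, zero_mul]
    simp
  · apply LinearMap.ext
    intro w
    rw [bigC_pow_succ he, h3, pow_succ, h3, zero_mul]
    simp
  · rw [bigB_pow_succ he hRe, h2, LinearMap.zero_apply, add_zero, Submodule.coe_smul]
    intro h
    rcases smul_eq_zero.1 h with h | h
    · exact hx h
    · exact h4 (Subtype.ext h)
  · refine ⟨(v : V), ?_⟩
    rw [bigC_pow_succ he, h3, qq_coe, LinearMap.zero_apply, map_add, map_smul]
    intro h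
    apply h5
    have h6 : φ (R ((((C' - 1) ^ m) v : ker φ) : V)) • y e = 0 := by simpa using h
    rcases smul_eq_zero.1 h6 with h | h
    · exact h
    · exact absurd h hy

theorem det_red [FiniteDimensional K V] {R : V →ₗ[K] V} {φ : V →ₗ[K] K} {e : V} (he : φ e = 1)
    (hRe : φ (R e) = 1) : (red R φ e hRe).det = R.det := by
  have h1 : R = (bigB R φ e he (red R φ e hRe)).comp (bigC R φ e he LinearMap.id) :=
    big_comp he hRe rfl
  have h2 : (bigC R φ e he LinearMap.id).det = 1 := by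
    have h3 : bigC R φ e he LinearMap.id = LinearMap.transvection
        ((φ.comp R).comp ((ker φ).subtype.comp (qq φ e he))) e := by
      apply LinearMap.ext
      intro v
      rw [bigC_apply, LinearMap.transvection.apply, LinearMap.id_apply, coe_qq]
      simp only [LinearMap.comp_apply, Submodule.subtype_apply, coe_qq]
      module
    rw [h3, LinearMap.transvection.det]
    simp [qq_e]
  have h4 : ker φ ≤ (ker φ).comap (bigB R φ e he (red R φ e hRe)) := by
    intro v hv
    rw [Submodule.mem_comap, bigB_apply, LinearMap.mem_ker.1 hv, zero_smul, zero_add]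
    exact Subtype.property _
  have h5 : (bigB R φ e he (red R φ e hRe)).det = (red R φ e hRe).det := by
    rw [LinearMap.det_eq_det_mul_det (ker φ) _ h4]
    have h6 : (ker φ).mapQ (ker φ) (bigB R φ e he (red R φ e hRe)) h4 = LinearMap.id := by
      apply LinearMap.ext
      intro v
      obtain ⟨v, rfl⟩ := Submodule.Quotient.mk_surjective _ v
      rw [Submodule.mapQ_apply, LinearMap.id_apply, Submodule.Quotient.eq, LinearMap.mem_ker, bigB_apply]
      have h8 : φ ((red R φ e hRe (qq φ e he v) : ker φ) : V) = 0 := (red R φ e hRe (qq φ e he v)).2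
      rw [map_sub, map_add, map_smul, hRe, h8]
      simp
    have h7 : (bigB R φ e he (red R φ e hRe)).restrict h4 = red R φ e hRe := by
      apply LinearMap.ext
      intro w
      apply Subtype.ext
      rw [LinearMap.coe_restrict_apply, bigB_apply, show φ (w : V) = 0 from w.2, zero_smul, zero_add, qq_coe]
    rw [h6, h7, LinearMap.det_id, mul_one]
  conv_rhs => rw [h1]
  rw [LinearMap.det_comp, h2, mul_one, h5]

end Cfsg.Agent.Mdx.RU
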