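import Cfsg.Agent.Mdx.RU1

/-!
Products of two regular unipotent maps: choice of the vector and the functional.
-/

set_option autoImplicit false

namespace Cfsg.Agent.Mdx.RU

open LinearMap Module

variable {K V : Type*} [Field K] [AddCommGroup V] [Module K V]

theorem li2 {v x : V} (hv : v ≠ 0) (hx : x ∉ Submodule.span K {v}) : LinearIndependent K ![v, x] := by
  rw [Fintype.linearIndependent_iff]
  intro g hg
  rw [Fin.sum_univ_two] at hg
  simp only [Matrix.cons_val_zero, Matrix.cons_val_one] at hg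
  have h1 : g 1 = 0 := by
    by_contra h
    apply hx
    refine Submodule.mem_span_singleton.2 ⟨-(g 1)⁻¹ * g 0, ?_⟩
    have e : (g 1)⁻¹ * g 1 = 1 := inv_mul_cancel₀ h
    have h4 : (g 1)⁻¹ • (g 0 • v + g 1 • x) = 0 := by rw [hg, smul_zero]
    linear_combination (norm := module) -h4 + e • x
  rw [h1, zero_smul, add_zero] at hg
  have h0 : g 0 = 0 := (smul_eq_zero.1 hg).resolve_right hv
  intro i
  fin_cases i
  · exact h0
  · exact h1

theorem li3 {v x x' : V} (hv : v ≠ 0) (hx : x ∉ Submodule.span K {v}) (hx' : x' ∉ Submodule.span K {v, x}) :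
    LinearIndependent K ![v, x, x'] := by
  rw [Fintype.linearIndependent_iff]
  intro g hg
  rw [Fin.sum_univ_three] at hg
  simp only [Matrix.cons_val_zero, Matrix.cons_val_one, Matrix.cons_val] at hg
  have h2 : g 2 = 0 := by
    by_contra h
    apply hx'
    refine Submodule.mem_span_pair.2 ⟨-(g 2)⁻¹ * g 0, -(g 2)⁻¹ * g 1, ?_⟩
    have e : (g 2)⁻¹ * g 2 = 1 := inv_mul_cancel₀ h
    have h4 : (g 2)⁻¹ • (g 0 • v + g 1 • x + g 2 • x') = 0 := by rw [hg, smul_zero]
    linear_combination (norm := module) -h4 + e • x'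
  rw [h2, zero_smul, add_zero] at hg
  have h1 : g 1 = 0 := by
    by_contra h
    apply hx
    refine Submodule.mem_span_singleton.2 ⟨-(g 1)⁻¹ * g 0, ?_⟩
    have e : (g 1)⁻¹ * g 1 = 1 := inv_mul_cancel₀ h
    have h4 : (g 1)⁻¹ • (g 0 • v + g 1 • x) = 0 := by rw [hg, smul_zero]
    linear_combination (norm := module) -h4 + e • x
  rw [h1, zero_smul, add_zero] at hg
  have h0 : g 0 = 0 := (smul_eq_zero.1 hg).resolve_right hv
  intro i
  fin_cases i
  · exact h0
  · exact h1
  · exact h2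

theorem exists_dual {n : ℕ} {v : Fin n → V} (hv : LinearIndependent K v) (c : Fin n → K) :
    ∃ φ : V →ₗ[K] K, ∀ i, φ (v i) = c i := by
  obtain ⟨φ, hφ⟩ := LinearMap.exists_extend ((Finsupp.linearCombination K c).comp hv.repr)
  refine ⟨φ, fun i => ?_⟩
  have h1 : φ (v i) = (φ.comp (Submodule.span K (Set.range v)).subtype)
      ⟨v i, Submodule.subset_span ⟨i, rfl⟩⟩ := rfl
  rw [h1, hφ, LinearMap.comp_apply]
  have h2 : hv.repr ⟨v i, Submodule.subset_span ⟨i, rfl⟩⟩ = Finsupp.single i 1 :=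
    hv.repr_eq_single i _ rfl
  rw [h2, Finsupp.linearCombination_single, one_smul]

theorem avoid {E : Type*} [AddCommGroup E] [Module K E] (T : Finset K) (S : Set E)
    (hS : ∀ a ∈ S, ∀ b ∈ S, ∀ t : K, a + t • (b - a) ∈ S) (hne : S.Nonempty)
    (L : List ((E →ₗ[K] K) × K)) (hL : L.length < T.card)
    (hex : ∀ p ∈ L, ∃ a ∈ S, p.1 a ≠ p.2) : ∃ a ∈ S, ∀ p ∈ L, p.1 a ≠ p.2 := by
  classical
  induction L with
  | nil =>
    obtain ⟨a, ha⟩ := hne
    exact ⟨a, ha, by simp⟩
  | cons p L ih =>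
    obtain ⟨a, ha, hA⟩ := ih (by simp at hL; omega) (fun r hr => hex r (List.mem_cons_of_mem _ hr))
    obtain ⟨b, hb, hB⟩ := hex p List.mem_cons_self
    by_cases hpa : p.1 a = p.2
    swap
    · refine ⟨a, ha, fun r hr => ?_⟩
      rcases List.mem_cons.1 hr with rfl | hr
      · exact hpa
      · exact hA r hr
    have hcard : (((p :: L).map (fun r => (r.2 - r.1 a) / (r.1 b - r.1 a))).toFinset).card < T.card :=
      lt_of_le_of_lt (List.toFinset_card_le _) (by rw [List.length_map]; exact hL)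
    obtain ⟨t, htT, ht⟩ := Finset.exists_mem_notMem_of_card_lt_card hcard
    have key : ∀ r ∈ p :: L, (r.1 a ≠ r.2 ∨ r.1 b ≠ r.2) → r.1 b - r.1 a ≠ 0 ∨ r.1 a ≠ r.2 →
        r.1 (a + t • (b - a)) ≠ r.2 := by
      intro r hr h0 h1 h2
      have ht' : t ≠ (r.2 - r.1 a) / (r.1 b - r.1 a) := by
        rintro rfl
        apply ht
        rw [List.mem_toFinset]
        exact List.mem_map.2 ⟨r, hr, rfl⟩
      rw [map_add, map_smul, map_sub, smul_eq_mul] at h2
      by_cases h3 : r.1 b - r.1 a = 0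
      · rw [h3, mul_zero, add_zero] at h2
        rcases h1 with h1 | h1
        · exact h1 h3
        · exact h1 h2
      · apply ht'
        rw [eq_div_iff h3]
        linear_combination h2
    refine ⟨a + t • (b - a), hS a ha b hb t, fun r hr => ?_⟩
    rcases List.mem_cons.1 hr with rfl | hr'
    · refine key r hr (Or.inr hB) (Or.inl ?_)
      rw [hpa]
      intro h
      apply hB
      linear_combination h
    · exact key r hr (Or.inl (hA r hr')) (Or.inr (hA r hr'))

/-- Functionals with value `1` at `e` and `0` at `u`. -/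
def Phi (K : Type*) {V : Type*} [Field K] [AddCommGroup V] [Module K V] (e u : V) : Set (V →ₗ[K] K) :=
  {φ | φ e = 1 ∧ φ u = 0}

theorem Phi_aff {e u : V} : ∀ a ∈ Phi K e u, ∀ b ∈ Phi K e u, ∀ t : K, a + t • (b - a) ∈ Phi K e u := by
  rintro a ⟨h1, h2⟩ b ⟨h3, h4⟩ t
  constructor
  · rw [LinearMap.add_apply, LinearMap.smul_apply, LinearMap.sub_apply, h1, h3, sub_self, smul_zero, add_zero]
  · rw [LinearMap.add_apply, LinearMap.smul_apply, LinearMap.sub_apply, h2, h4, sub_self, smul_zero, add_zero]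

theorem sat2 {e u z : V} (he : e ≠ 0) (hu : u ∉ Submodule.span K {e}) (hz : z ∉ Submodule.span K {e, u})
    (c : K) : ∃ φ ∈ Phi K e u, φ z ≠ c := by
  obtain ⟨φ, hφ⟩ := exists_dual (li3 he hu hz) ![1, 0, c + 1]
  refine ⟨φ, ⟨hφ 0, hφ 1⟩, ?_⟩
  have : φ z = c + 1 := hφ 2
  rw [this]
  simp

theorem sat1 {e u z : V} (he : e ≠ 0) (hu : u ∉ Submodule.span K {e}) (hz : z ∉ Submodule.span K {u}) :
    ∃ φ ∈ Phi K e u, φ z ≠ 0 := by
  by_cases hz2 : z ∈ Submodule.span K {e, u}
  · obtain ⟨a, b, rfl⟩ := Submodule.mem_span_pair.1 hz2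
    obtain ⟨φ, hφ⟩ := exists_dual (li2 he hu) ![1, 0]
    have h0 : φ e = 1 := hφ 0
    have h1 : φ u = 0 := hφ 1
    refine ⟨φ, ⟨h0, h1⟩, ?_⟩
    rw [map_add, map_smul, map_smul, h0, h1, smul_zero, add_zero, smul_eq_mul, mul_one]
    rintro rfl
    apply hz
    rw [zero_smul, zero_add]
    exact Submodule.smul_mem _ _ (Submodule.mem_span_singleton_self u)
  · exact sat2 he hu hz2 0

theorem Phi_nonempty {e u : V} (he : e ≠ 0) (hu : u ∉ Submodule.span K {e}) : (Phi K e u).Nonempty := by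
  obtain ⟨φ, hφ⟩ := exists_dual (li2 he hu) ![1, 0]
  exact ⟨φ, hφ 0, hφ 1⟩

/-- The reduced map is scalar. -/
def Bad (R : V →ₗ[K] V) (e : V) (φ : V →ₗ[K] K) : Prop :=
  ∃ c : K, ∀ v, φ v = 0 → R v - φ (R v) • R e = c • v

theorem bad_unique {R : V →ₗ[K] V} (hinj : Function.Injective R) {e : V} {φ ψ : V →ₗ[K] K}
    (hne : ∀ c : K, R e ≠ c • e) (hφe : φ e = 1) (hφR : φ (R e) = 1) (hψe : ψ e = 1) (hψR : ψ (R e) = 1)
    (hdim : ∃ v, v ≠ 0 ∧ φ v = 0 ∧ ψ v = 0) (hb : Bad R e φ) (hb' : Bad R e ψ) : φ = ψ := by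
  obtain ⟨c, hc⟩ := hb
  obtain ⟨d, hd⟩ := hb'
  obtain ⟨v, hv, hv1, hv2⟩ := hdim
  have hcd : c = d := by
    by_contra hcd
    have h1 : (c - d) • v = (ψ (R v) - φ (R v)) • R e := by
      rw [sub_smul, ← hc v hv1, ← hd v hv2]; module
    have h2 : φ ((c - d) • v) = ψ (R v) - φ (R v) := by
      rw [h1, map_smul, hφR, smul_eq_mul, mul_one]
    rw [map_smul, hv1, smul_zero] at h2
    rw [← h2, zero_smul] at h1
    rcases smul_eq_zero.1 h1 with h | h
    · exact hcd (sub_eq_zero.1 h)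
    · exact hv h
  subst hcd
  by_contra hne'
  -- a vector in ker ψ not in ker φ
  have hex : ∃ w, ψ w = 0 ∧ φ w ≠ 0 := by
    by_contra hcon
    push Not at hcon
    apply hne'
    apply LinearMap.ext
    intro w
    have h1 := hcon (w - ψ w • e) (by rw [map_sub, map_smul, hψe, smul_eq_mul, mul_one, sub_self])
    rw [map_sub, map_smul, hφe, smul_eq_mul, mul_one] at h1
    exact sub_eq_zero.1 h1
  obtain ⟨w, hw1, hw2⟩ := hex
  -- w - φ w e ∈ ker φ
  have h1 := hd w hw1
  have h2 := hc (w - φ w • e) (by rw [map_sub, map_smul, hφe, smul_eq_mul, mul_one, sub_self])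
  rw [map_sub, map_smul] at h2
  -- R e ∈ span e
  have h3 : ∃ t : K, φ w • (R e - c • e) = t • R e := by
    refine ⟨ψ (R w) - φ (R w - φ w • R e), ?_⟩
    have : φ w • (R e - c • e) = (R w - c • w) - (R w - φ w • R e - c • (w - φ w • e)) := by module
    rw [this, sub_smul]
    have h4 : R w - c • w = ψ (R w) • R e := by rw [← h1]; module
    have h5 : R w - φ w • R e - c • (w - φ w • e) = φ (R w - φ w • R e) • R e := by rw [← h2]; module
    rw [h4, h5]
  obtain ⟨t, ht⟩ := h3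
  have h6 : R e - c • e = (t / φ w) • R e := by
    have : (φ w)⁻¹ • (φ w • (R e - c • e)) = (φ w)⁻¹ • (t • R e) := by rw [ht]
    rw [smul_smul, inv_mul_cancel₀ hw2, one_smul, smul_smul] at this
    rw [this]
    congr 1
    rw [div_eq_inv_mul]
  have he0 : e ≠ 0 := by rintro rfl; simp at hφe
  have hc0 : c ≠ 0 := by
    rintro rfl
    have h7 := hc v hv1
    rw [zero_smul, sub_eq_zero] at h7
    have h8 : R v = R (φ (R v) • e) := by rw [map_smul]; exact h7
    have h9 := hinj h8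
    have h10 : φ v = φ (R v) := by
      conv_lhs => rw [h9]
      rw [map_smul, hφe, smul_eq_mul, mul_one]
    rw [hv1] at h10
    rw [← h10, zero_smul] at h9
    exact hv h9
  by_cases h8 : 1 - t / φ w = 0
  · have h9 : c • e = (1 - t / φ w) • R e := by rw [sub_smul, one_smul, ← h6]; module
    rw [h8, zero_smul] at h9
    rcases smul_eq_zero.1 h9 with h | h
    · exact hc0 h
    · exact he0 h
  · apply hne ((1 - t / φ w)⁻¹ * c)
    have h9 : c • e = (1 - t / φ w) • R e := by rw [sub_smul, one_smul, ← h6]; module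
    rw [mul_smul, h9, smul_smul, inv_mul_cancel₀ h8, one_smul]

end Cfsg.Agent.Mdx.RU
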