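import Cfsg.Agent.Mdx.RU2

/-!
Products of two regular unipotent maps: determinants in dimension three, kernels.
-/

set_option autoImplicit false

namespace Cfsg.Agent.Mdx.RU

open LinearMap Module

variable {K V : Type*} [Field K] [AddCommGroup V] [Module K V]

theorem det_three [FiniteDimensional K V] (hd : finrank K V = 3) {R : V →ₗ[K] V} {a b w : V}
    (hli : LinearIndependent K ![a, b, w]) {p0 p1 q0 q1 s0 s1 s2 : K}
    (ha : R a = p0 • a + p1 • b) (hb : R b = q0 • a + q1 • b) (hw : R w = s0 • a + s1 • b + s2 • w) :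
    R.det = (p0 * q1 - p1 * q0) * s2 := by
  let B : Basis (Fin 3) K V := basisOfLinearIndependentOfCardEqFinrank hli (by rw [hd]; rfl)
  have hB0 : B 0 = a := by simp [B]
  have hB1 : B 1 = b := by simp [B]
  have hB2 : B 2 = w := by simp [B]
  rw [← LinearMap.det_toMatrix B, Matrix.det_fin_three]
  have e0 : B.repr (R a) = Finsupp.single 0 p0 + Finsupp.single 1 p1 := by
    rw [ha, ← hB0, ← hB1]; simp
  have e1 : B.repr (R b) = Finsupp.single 0 q0 + Finsupp.single 1 q1 := by
    rw [hb, ← hB0, ← hB1]; simp
  have e2 : B.repr (R w) = Finsupp.single 0 s0 + Finsupp.single 1 s1 + Finsupp.single 2 s2 := by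
    rw [hw, ← hB0, ← hB1, ← hB2]; simp
  simp only [LinearMap.toMatrix_apply, hB0, hB1, hB2, e0, e1, e2]
  simp only [Finsupp.add_apply, Finsupp.single_apply]
  simp
  ring

theorem frp {a b : V} (h : LinearIndependent K ![a, b]) : finrank K (Submodule.span K {a, b}) = 2 := by
  have h1 : Set.range ![a, b] = {a, b} := by
    ext x
    simp only [Set.mem_range, Fin.exists_fin_two, Matrix.cons_val_zero, Matrix.cons_val_one,
      Set.mem_insert_iff, Set.mem_singleton_iff, eq_comm]
  rw [← h1, finrank_span_eq_card h]; rfl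

theorem frt {a b c : V} (h : LinearIndependent K ![a, b, c]) :
    finrank K (Submodule.span K {a, b, c}) = 3 := by
  have h1 : Set.range ![a, b, c] = {a, b, c} := by
    ext x
    simp only [Set.mem_range, Fin.exists_fin_succ, Matrix.cons_val_zero, Matrix.cons_val_succ,
      Set.mem_insert_iff, Set.mem_singleton_iff, eq_comm, Fin.exists_fin_zero, IsEmpty.exists_iff, or_false]
  rw [← h1, finrank_span_eq_card h]; rfl

/-- Second dimension three lemma. -/
theorem no_square [FiniteDimensional K V] (hd : finrank K V = 3) {R : V →ₗ[K] V} (hdet : R.det = 1)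
    (hker : finrank K (ker (R - 1)) = 1) {e : V} (he : e ∉ range (R - 1)) (hu : (R - 1) e ≠ 0) :
    (R - 1) ((R - 1) e) ≠ 0 := by
  intro hN
  set N := R - 1 with hNdef
  have hR : ∀ v, R v = v + N v := by intro v; rw [hNdef]; simp
  have hr : finrank K (range N) = 2 := by
    have := LinearMap.finrank_range_add_finrank_ker N
    omega
  have hex : ∃ w ∈ range N, w ∉ Submodule.span K {N e} := by
    by_contra hcon
    push Not at hcon
    have h1 : finrank K (range N) ≤ finrank K (Submodule.span K {N e}) :=
      Submodule.finrank_mono hcon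
    have h2 := finrank_span_singleton (K := K) hu
    omega
  obtain ⟨w, hw, hwu⟩ := hex
  have hw2 : w ∉ Submodule.span K {N e, e} := by
    intro h
    obtain ⟨s, t, hst⟩ := Submodule.mem_span_pair.1 h
    by_cases ht : t = 0
    · apply hwu
      rw [← hst, ht, zero_smul, add_zero]
      exact Submodule.smul_mem _ _ (Submodule.mem_span_singleton_self _)
    · apply he
      have h1 : t • e ∈ range N := by
        have : t • e = w - s • N e := by rw [← hst]; module
        rw [this]
        exact Submodule.sub_mem _ hw (Submodule.smul_mem _ _ ⟨e, rfl⟩)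
      have h2 := Submodule.smul_mem _ t⁻¹ h1
      rwa [smul_smul, inv_mul_cancel₀ ht, one_smul] at h2
  have heu : e ∉ Submodule.span K {N e} := by
    intro h
    apply he
    obtain ⟨s, hs⟩ := Submodule.mem_span_singleton.1 h
    rw [← hs]
    exact Submodule.smul_mem _ _ ⟨e, rfl⟩
  have hli : LinearIndependent K ![N e, e, w] := li3 hu heu hw2
  -- range N is spanned by N e and w
  have hspan : range N ≤ Submodule.span K {N e, w} := by
    have h1 : Submodule.span K {N e, w} ≤ range N := by
      rw [Submodule.span_le]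
      rintro x hx
      rcases hx with rfl | hx
      · exact ⟨e, rfl⟩
      · rw [Set.mem_singleton_iff.1 hx]; exact hw
    have h2 : finrank K (Submodule.span K {N e, w}) = 2 := frp (li2 hu hwu)
    exact (Submodule.eq_of_le_of_finrank_eq h1 (by rw [h2, hr])).ge
  obtain ⟨s, t, hst⟩ := Submodule.mem_span_pair.1 (hspan ⟨w, rfl⟩)
  have hdet' := det_three hd hli (R := R) (p0 := 1) (p1 := 0) (q0 := 1) (q1 := 1) (s0 := s) (s1 := 0)
    (s2 := 1 + t) (by rw [hR, hN]; module) (by rw [hR]; module) (by rw [hR, ← hst]; module)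
  rw [hdet] at hdet'
  have ht0 : t = 0 := by linear_combination -hdet'
  -- then w - s e ∈ ker
  have h3 : w - s • e ∈ ker N := by
    rw [LinearMap.mem_ker, map_sub, map_smul, ← hst, ht0]; module
  have h4 : N e ∈ ker N := hN
  have h5 : LinearIndependent K ![N e, w - s • e] := by
    apply li2 hu
    intro h
    obtain ⟨c, hc⟩ := Submodule.mem_span_singleton.1 h
    apply hw2
    refine Submodule.mem_span_pair.2 ⟨c, s, ?_⟩
    rw [hc]; module
  have h6 : finrank K (Submodule.span K {N e, w - s • e}) = 2 := frp h5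
  have h7 : finrank K (Submodule.span K {N e, w - s • e}) ≤ finrank K (ker N) := by
    apply Submodule.finrank_mono
    rw [Submodule.span_le]
    rintro x hx
    rcases hx with rfl | hx
    · exact h4
    · rw [Set.mem_singleton_iff.1 hx]; exact h3
  omega

/-- Third dimension three lemma. -/
theorem no_plane [FiniteDimensional K V] (hd : finrank K V = 3) {R : V →ₗ[K] V} (hdet : R.det = 1)
    (hker : ker (R - 1) = ⊥) {f : V} {β : K}
    (hli : LinearIndependent K ![f, (R - 1) f])
    (hf : f + (R - 1) f = β • (R - 1) ((R - 1) f)) : False := by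
  set N := R - 1 with hNdef
  have hR : ∀ v, R v = v + N v := by intro v; rw [hNdef]; simp
  have hinj : Function.Injective N := LinearMap.ker_eq_bot.1 hker
  have hβ : β ≠ 0 := by
    rintro rfl
    rw [zero_smul] at hf
    have := (LinearIndependent.pair_iff.1 hli) 1 1 (by rw [one_smul, one_smul]; exact hf)
    exact one_ne_zero this.1
  have hNN : N (N f) = β⁻¹ • f + β⁻¹ • N f := by
    rw [← smul_add, hf, smul_smul, inv_mul_cancel₀ hβ, one_smul]
  have hf0 : f ≠ 0 := hli.ne_zero 0
  have hfN : N f ∉ Submodule.span K {f} := by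
    intro h
    obtain ⟨c, hc⟩ := Submodule.mem_span_singleton.1 h
    have := (LinearIndependent.pair_iff.1 hli) c (-1) (by rw [hc]; module)
    have h2 := this.2
    exact one_ne_zero (neg_eq_zero.1 h2)
  have hP2 : finrank K (Submodule.span K {f, N f}) = 2 := frp hli
  have hex : ∃ w, w ∉ Submodule.span K {f, N f} := by
    by_contra hcon
    push Not at hcon
    have h1 : Submodule.span K {f, N f} = ⊤ := eq_top_iff.2 fun x _ => hcon x
    rw [h1, finrank_top] at hP2
    omega
  obtain ⟨w, hw⟩ := hex
  have hli3 : LinearIndependent K ![f, N f, w] := li3 hf0 hfN hw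
  have htop : Submodule.span K {f, N f, w} = ⊤ := by
    apply Submodule.eq_top_of_finrank_eq
    rw [hd, frt hli3]
  have hNw : N w ∈ Submodule.span K {f, N f, w} := by rw [htop]; trivial
  obtain ⟨a, b, c, habc⟩ : ∃ a b c : K, a • f + b • N f + c • w = N w := by
    rw [Submodule.mem_span_insert] at hNw
    obtain ⟨a, z, hz, hz2⟩ := hNw
    obtain ⟨b, c, hbc⟩ := Submodule.mem_span_pair.1 hz
    exact ⟨a, b, c, by rw [hz2, ← hbc]; module⟩
  have hdet' := det_three hd hli3 (R := R) (p0 := 1) (p1 := 1) (q0 := β⁻¹) (q1 := 1 + β⁻¹) (s0 := a) (s1 := b)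
    (s2 := 1 + c) (by rw [hR]; module) (by rw [hR, hNN]; module) (by rw [hR, ← habc]; module)
  rw [hdet] at hdet'
  have hc0 : c = 0 := by linear_combination -hdet'
  -- range N ≤ span {f, N f}
  have hle : range N ≤ Submodule.span K {f, N f} := by
    rintro _ ⟨x, rfl⟩
    have hx : x ∈ Submodule.span K {f, N f, w} := by rw [htop]; trivial
    rw [Submodule.mem_span_insert] at hx
    obtain ⟨s, z, hz, rfl⟩ := hx
    obtain ⟨t, v, rfl⟩ := Submodule.mem_span_pair.1 hz
    rw [map_add, map_add, map_smul, map_smul, map_smul, hNN, ← habc, hc0]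
    refine Submodule.mem_span_pair.2 ⟨t * β⁻¹ + v * a, s + t * β⁻¹ + v * b, ?_⟩
    module
  have h1 := Submodule.finrank_mono hle
  have h2 := LinearMap.finrank_range_of_inj hinj
  omega

end Cfsg.Agent.Mdx.RU
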