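import Cfsg.Agent.Mdx.RU3

/-!
Products of two regular unipotent maps: kernels of the reduced map, auxiliary conditions.
-/

set_option autoImplicit false

namespace Cfsg.Agent.Mdx.RU

open LinearMap Module

variable {K V : Type*} [Field K] [AddCommGroup V] [Module K V]

theorem kerA {R : V →ₗ[K] V} {φ : V →ₗ[K] K} {e : V} (hRe : φ (R e) = 1) (he : e ∉ range (R - 1))
    {v : ker φ} (hv : v ∈ ker (red R φ e hRe - 1)) : (v : V) ∈ ker (R - 1) := by
  have h1 : R (v : V) - φ (R v) • R e = v := by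
    rw [← coe_red R φ e hRe, ← sub_eq_zero]
    have h2 := congrArg Subtype.val (LinearMap.mem_ker.1 hv)
    exact h2
  rw [LinearMap.mem_ker, LinearMap.sub_apply, Module.End.one_apply]
  have h3 : R (v : V) - v = φ (R v) • R e := by
    rw [sub_eq_iff_eq_add] at h1
    rw [sub_eq_iff_eq_add, add_comm]; exact h1
  by_cases h4 : φ (R (v : V)) = 0
  · rw [h3, h4, zero_smul]
  · exfalso
    apply he
    have h5 : R e ∈ range (R - 1) := by
      refine ⟨(φ (R (v : V)))⁻¹ • (v : V), ?_⟩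
      rw [map_smul, LinearMap.sub_apply, Module.End.one_apply, h3, smul_smul, inv_mul_cancel₀ h4, one_smul]
    have h6 : e = R e - (R - 1) e := by simp
    rw [h6]
    exact Submodule.sub_mem _ h5 ⟨e, rfl⟩

theorem finrank_kerA [FiniteDimensional K V] {R : V →ₗ[K] V} {φ : V →ₗ[K] K} {e : V} (hRe : φ (R e) = 1)
    (he : e ∉ range (R - 1)) :
    finrank K (ker (red R φ e hRe - 1)) ≤ finrank K (ker (R - 1) ⊓ ker φ : Submodule K V) := by
  rw [← Submodule.finrank_map_subtype_eq (ker φ) (ker (red R φ e hRe - 1))]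
  apply Submodule.finrank_mono
  rintro _ ⟨v, hv, rfl⟩
  exact ⟨kerA hRe he hv, v.2⟩

theorem finrank_kerA_lt [FiniteDimensional K V] {R : V →ₗ[K] V} {φ : V →ₗ[K] K} {e : V} (hRe : φ (R e) = 1)
    (he : e ∉ range (R - 1)) {k : V} (hk : k ∈ ker (R - 1)) (hk2 : φ k ≠ 0) :
    finrank K (ker (red R φ e hRe - 1)) < finrank K (ker (R - 1)) := by
  refine lt_of_le_of_lt (finrank_kerA hRe he) (Submodule.finrank_lt_finrank_of_lt ?_)
  refine lt_of_le_of_ne inf_le_left ?_
  intro h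
  apply hk2
  have : k ∈ ker (R - 1) ⊓ ker φ := by rw [h]; exact hk
  exact this.2

theorem kerB_coe {R : V →ₗ[K] V} {φ : V →ₗ[K] K} {e : V} (hRe : φ (R e) = 1)
    {v : ker φ} (hv : v ∈ ker (red R φ e hRe - 1)) : (R - 1) (v : V) = φ (R v) • R e := by
  have h1 : R (v : V) - φ (R v) • R e = v := by
    rw [← coe_red R φ e hRe, ← sub_eq_zero]
    have h2 := congrArg Subtype.val (LinearMap.mem_ker.1 hv)
    exact h2
  rw [LinearMap.sub_apply, Module.End.one_apply]
  rw [sub_eq_iff_eq_add] at h1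
  rw [sub_eq_iff_eq_add, add_comm]; exact h1

theorem finrank_kerB [FiniteDimensional K V] {R : V →ₗ[K] V} {φ : V →ₗ[K] K} {e : V} (hRe : φ (R e) = 1)
    (hinj : Function.Injective ⇑(R - 1 : V →ₗ[K] V)) : finrank K (ker (red R φ e hRe - 1)) ≤ 1 := by
  let g : ker (red R φ e hRe - 1) →ₗ[K] K := (φ.comp R).comp ((ker φ).subtype.comp (Submodule.subtype _))
  have hg : Function.Injective g := by
    rw [injective_iff_map_eq_zero]
    intro v hv
    have h1 := kerB_coe hRe v.2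
    have h2 : φ (R ((v : ker φ) : V)) = 0 := hv
    rw [h2, zero_smul] at h1
    have h3 : (((v : ker φ) : V)) = 0 := by
      apply hinj
      rw [h1, map_zero]
    exact Subtype.ext (Subtype.ext h3)
  have := LinearMap.finrank_le_finrank_of_injective hg
  rwa [finrank_self] at this

theorem kerB_bot [FiniteDimensional K V] {R : V →ₗ[K] V} {φ : V →ₗ[K] K} {e f : V} (hRe : φ (R e) = 1)
    (he : φ e = 1) (hinj : Function.Injective ⇑(R - 1 : V →ₗ[K] V)) (hf : (R - 1) f = e) (hφ : φ f ≠ -1) :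
    ker (red R φ e hRe - 1) = ⊥ := by
  rw [LinearMap.ker_eq_bot']
  intro v hv
  have h1 := kerB_coe hRe (LinearMap.mem_ker.2 hv)
  have h2 : R e = (R - 1) (e + f) := by rw [map_add, hf]; simp
  rw [h2, ← map_smul] at h1
  have h3 := hinj h1
  have h4 : φ (v : V) = 0 := v.2
  have h5 : φ (v : V) = φ (R (v : V)) * (1 + φ f) := by
    conv_lhs => rw [h3]
    rw [map_smul, map_add, he, smul_eq_mul]
  have h6 : (1 + φ f) ≠ 0 := by
    intro h
    apply hφ
    linear_combination h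
  rw [h4] at h5
  have h7 : φ (R (v : V)) = 0 := by
    rcases mul_eq_zero.1 h5.symm with h | h
    · exact h
    · exact absurd h h6
  apply Subtype.ext
  rw [h3, h7, zero_smul]; rfl

theorem exists_common_ker [FiniteDimensional K V] (hd : 3 ≤ finrank K V) (φ ψ : V →ₗ[K] K) :
    ∃ v, v ≠ 0 ∧ φ v = 0 ∧ ψ v = 0 := by
  have h1 : ker (φ.prod ψ) ≠ ⊥ := by
    apply LinearMap.ker_ne_bot_of_finrank_lt
    rw [finrank_prod, finrank_self]
    omega
  obtain ⟨v, hv, hv0⟩ := Submodule.exists_mem_ne_zero_of_ne_bot h1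
  rw [LinearMap.mem_ker, LinearMap.prod_apply] at hv
  have := Prod.ext_iff.1 hv
  exact ⟨v, hv0, this.1, this.2⟩

theorem exists_not_mem_pair [FiniteDimensional K V] (hd : 3 ≤ finrank K V) (a b : V) :
    ∃ w, w ∉ Submodule.span K {a, b} := by
  by_contra hcon
  push Not at hcon
  have h1 : Submodule.span K {a, b} = ⊤ := eq_top_iff.2 fun x _ => hcon x
  have h2 : finrank K (Submodule.span K {a, b}) ≤ 2 := by
    classical
    have h : ({a, b} : Set V) = (({a, b} : Finset V) : Set V) := by simp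
    rw [h]
    exact le_trans (finrank_span_finset_le_card ({a, b} : Finset V)) Finset.card_le_two
  rw [h1, finrank_top] at h2
  omega

/-- The condition excluding scalar reduced maps. -/
theorem exists_sc [FiniteDimensional K V] (hd : 3 ≤ finrank K V) {R : V →ₗ[K] V}
    (hinj : Function.Injective R) {e : V} (he0 : e ≠ 0)
    (hu : (R - 1) e ∉ Submodule.span K {e}) :
    ∃ p : ((V →ₗ[K] K) →ₗ[K] K) × K, (∃ φ ∈ Phi K e ((R - 1) e), p.1 φ ≠ p.2) ∧
      ∀ φ ∈ Phi K e ((R - 1) e), p.1 φ ≠ p.2 → ¬ Bad R e φ := by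
  by_cases hb : ∃ φ ∈ Phi K e ((R - 1) e), Bad R e φ
  · obtain ⟨φ, hφ, hφb⟩ := hb
    obtain ⟨w, hw⟩ := exists_not_mem_pair hd e ((R - 1) e)
    refine ⟨(LinearMap.applyₗ w, φ w), ?_, ?_⟩
    · obtain ⟨ψ, hψ, hψw⟩ := sat2 he0 hu hw (φ w)
      exact ⟨ψ, hψ, hψw⟩
    · intro ψ hψ hne hbad
      apply hne
      have hR : ∀ χ ∈ Phi K e ((R - 1) e), χ (R e) = 1 := by
        rintro χ ⟨h1, h2⟩
        rw [LinearMap.sub_apply, Module.End.one_apply, map_sub, h1] at h2
        exact sub_eq_zero.1 h2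
      have := bad_unique hinj (φ := ψ) (ψ := φ) (e := e) (fun c h => hu ?_) hψ.1 (hR ψ hψ) hφ.1 (hR φ hφ)
        (exists_common_ker hd _ _) hbad hφb
      · rw [this]; rfl
      · rw [LinearMap.sub_apply, Module.End.one_apply, h]
        refine Submodule.mem_span_singleton.2 ⟨c - 1, by module⟩
  · refine ⟨(0, 1), ?_, ?_⟩
    · obtain ⟨φ, hφ⟩ := Phi_nonempty he0 hu
      exact ⟨φ, hφ, by simp⟩
    · intro φ hφ _ hbad
      exact hb ⟨φ, hφ, hbad⟩

theorem bad_of_red {R : V →ₗ[K] V} {φ : V →ₗ[K] K} {e : V} (hRe : φ (R e) = 1) {c : K}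
    (h : red R φ e hRe = c • 1) : Bad R e φ := by
  refine ⟨c, fun v hv => ?_⟩
  have h1 := congrArg (fun g => ((g ⟨v, hv⟩ : ker φ) : V)) h
  simp only [coe_red] at h1
  exact h1

end Cfsg.Agent.Mdx.RU
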