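import Cfsg.Agent.Mdx.RU4

/-!
Products of two regular unipotent maps: the selection theorem.
-/

set_option autoImplicit false

namespace Cfsg.Agent.Mdx.RU

open LinearMap Module

variable {K V : Type*} [Field K] [AddCommGroup V] [Module K V]

/-- What has to be chosen in one step. -/
def Sel (m : ℕ) (R : V →ₗ[K] V) (x : V) (y : V →ₗ[K] K) : Prop :=
  ∃ (φ : V →ₗ[K] K) (e : V) (_ : φ e = 1) (hRe : φ (R e) = 1), φ x ≠ 0 ∧ y e ≠ 0 ∧ R e - e ≠ 0 ∧
    (∃ v, φ v = 0 ∧ φ (R v) ≠ 0) ∧ (m = 0 ∨ ((∀ c : K, red R φ e hRe ≠ c • 1) ∧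
      finrank K (ker (red R φ e hRe - 1)) + 2 ≤ m + 1))

theorem inj_of_det [FiniteDimensional K V] {R : V →ₗ[K] V} (h : R.det = 1) : Function.Injective R := by
  have h1 : IsUnit R.det := by rw [h]; exact isUnit_one
  intro a b hab
  exact (LinearMap.equivOfIsUnitDet h1).injective (by simpa using hab)

/-- Selection when `1` is an eigenvalue. -/
theorem selA [FiniteDimensional K V] {m : ℕ} (hd : finrank K V = m + 2) {R : V →ₗ[K] V} (hdet : R.det = 1)
    (hk1 : ker (R - 1) ≠ ⊥) (hk2 : finrank K (ker (R - 1)) + 2 ≤ m + 2) {x : V} (hx : x ≠ 0)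
    {y : V →ₗ[K] K} (hy : y ≠ 0) {T : Finset K} (hT : 4 ≤ T.card)
    (h5 : (2 : K) ≠ 0 → ∃ T : Finset K, 5 ≤ T.card) : Sel m R x y := by
  set N := R - 1 with hNdef
  have hN : ∀ v, N v = R v - v := by intro v; rw [hNdef]; simp
  have hpos : 1 ≤ finrank K (ker N) := by
    rw [Nat.one_le_iff_ne_zero]
    intro h
    exact hk1 (Submodule.finrank_eq_zero.1 h)
  have hrk := LinearMap.finrank_range_add_finrank_ker N
  -- χ
  have hlt : range N < ⊤ := by
    rw [lt_top_iff_ne_top]
    intro h
    rw [h, finrank_top] at hrk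
    omega
  obtain ⟨χ, hχ0, hχ⟩ := Submodule.exists_le_ker_of_lt_top _ hlt
  -- ψ
  have hnot : ∀ z : V, ∃ v, N v ∉ Submodule.span K {z} := by
    intro z
    by_contra hcon
    push Not at hcon
    have h1 : range N ≤ Submodule.span K {z} := by rintro _ ⟨v, rfl⟩; exact hcon v
    have h2 := Submodule.finrank_mono h1
    have h3 : finrank K (Submodule.span K {z}) ≤ 1 := by
      refine le_trans (finrank_span_le_card ({z} : Set V)) ?_
      simp
    omega
  obtain ⟨v₀, hv₀⟩ := hnot x
  obtain ⟨ψ, hψ0, hψ⟩ := Submodule.exists_le_ker_of_notMem hv₀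
  have hψx : ψ x = 0 := hψ (Submodule.mem_span_singleton_self x)
  -- e
  obtain ⟨e, -, he⟩ := avoid (K := K) (E := V) T Set.univ (fun _ _ _ _ _ => trivial) ⟨0, trivial⟩
    [(y, 0), (ψ.comp N, 0), (χ, 0)] (by simp; omega) (by
      intro p hp
      simp only [List.mem_cons, List.not_mem_nil, or_false] at hp
      rcases hp with rfl | rfl | rfl
      · by_contra hcon
        push Not at hcon
        exact hy (LinearMap.ext fun v => hcon v trivial)
      · exact ⟨v₀, trivial, hψ0⟩
      · by_contra hcon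
        push Not at hcon
        exact hχ0 (LinearMap.ext fun v => hcon v trivial))
  have he1 : y e ≠ 0 := he (y, 0) (by simp)
  have he2 : ψ (N e) ≠ 0 := he (ψ.comp N, 0) (by simp)
  have he3 : χ e ≠ 0 := he (χ, 0) (by simp)
  have heN : e ∉ range N := fun h => he3 (hχ h)
  have he0 : e ≠ 0 := by rintro rfl; simp at he1
  have hu0 : N e ≠ 0 := by intro h; rw [h] at he2; simp at he2
  have hu : N e ∉ Submodule.span K {e} := by
    intro h
    obtain ⟨c, hc⟩ := Submodule.mem_span_singleton.1 h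
    have h1 : χ (N e) = 0 := hχ ⟨e, rfl⟩
    rw [← hc, map_smul, smul_eq_mul] at h1
    rcases mul_eq_zero.1 h1 with h | h
    · rw [h, zero_smul] at hc; exact hu0 hc.symm
    · exact he3 h
  have hxu : x ∉ Submodule.span K {N e} := by
    intro h
    obtain ⟨c, hc⟩ := Submodule.mem_span_singleton.1 h
    have h1 : ψ (c • N e) = 0 := by rw [hc, hψx]
    rw [map_smul, smul_eq_mul] at h1
    rcases mul_eq_zero.1 h1 with h | h
    · rw [h, zero_smul] at hc; exact hx hc.symm
    · exact he2 h
  obtain ⟨vz, hz⟩ := hnot (N e)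
  have hinj := inj_of_det hdet
  -- final assembly given φ
  have fin : ∀ φ ∈ Phi K e (N e), φ x ≠ 0 → φ (N vz) ≠ 0 →
      (∀ hRe : φ (R e) = 1, m = 0 ∨ ((∀ c : K, red R φ e hRe ≠ c • 1) ∧
      finrank K (ker (red R φ e hRe - 1)) + 2 ≤ m + 1)) → Sel m R x y := by
    rintro φ ⟨hφ1, hφ2⟩ hφx hφz hrest
    have hRe : φ (R e) = 1 := by
      rw [hN, map_sub, hφ1] at hφ2
      exact sub_eq_zero.1 hφ2
    refine ⟨φ, e, hφ1, hRe, hφx, he1, ?_, ⟨vz - φ vz • e, ?_, ?_⟩, hrest hRe⟩
    · rw [← hN]; exact hu0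
    · rw [map_sub, map_smul, hφ1, smul_eq_mul, mul_one, sub_self]
    · rw [map_sub, map_sub, map_smul, map_smul, hRe, smul_eq_mul, mul_one, ← map_sub]
      rw [← hN]; exact hφz
  by_cases hcase : finrank K (ker N) = m
  · -- rank two
    have hm1 : 1 ≤ m := by omega
    have hexk : ∃ k ∈ ker N, k ∉ Submodule.span K {N e} := by
      by_contra hcon
      push Not at hcon
      have h1 : ker N ≤ Submodule.span K {N e} := hcon
      have h2 := Submodule.finrank_mono h1
      rw [finrank_span_singleton hu0] at h2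
      have hm : m = 1 := by omega
      subst hm
      have h3 := no_square hd hdet (by rw [← hNdef]; exact hcase) heN hu0
      have h4 : ker N = Submodule.span K {N e} := by
        apply Submodule.eq_of_le_of_finrank_eq h1
        rw [hcase, finrank_span_singleton hu0]
      apply h3
      have h5 : N e ∈ ker N := by rw [h4]; exact Submodule.mem_span_singleton_self _
      exact h5
    obtain ⟨k, hk, hku⟩ := hexk
    have s1 := sat1 he0 hu hxu
    have s2 := sat1 he0 hu hz
    have s3 := sat1 he0 hu hku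
    by_cases h2 : (2 : K) = 0
    · obtain ⟨φ, hφ, hφa⟩ := avoid (K := K) T (Phi K e (N e)) Phi_aff (Phi_nonempty he0 hu)
        [(LinearMap.applyₗ x, 0), (LinearMap.applyₗ (N vz), 0), (LinearMap.applyₗ k, 0)] (by simp; omega) (by
          intro p hp
          simp only [List.mem_cons, List.not_mem_nil, or_false] at hp
          rcases hp with rfl | rfl | rfl
          · exact s1
          · exact s2
          · exact s3)
      have a1 : φ x ≠ 0 := hφa (LinearMap.applyₗ x, 0) (by simp)
      have a2 : φ (N vz) ≠ 0 := hφa (LinearMap.applyₗ (N vz), 0) (by simp)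
      have a3 : φ k ≠ 0 := hφa (LinearMap.applyₗ k, 0) (by simp)
      refine fin φ hφ a1 a2 fun hRe => Or.inr ?_
      have hlt := finrank_kerA_lt hRe heN hk a3
      have hfk : finrank K (ker φ) = m + 1 := by
        have h1 := LinearMap.finrank_range_add_finrank_ker φ
        have h3 : finrank K (range φ) = 1 := by
          have : range φ = ⊤ := LinearMap.range_eq_top.2 (LinearMap.surjective (by
            rintro rfl; simp at a1))
          rw [this, finrank_top, finrank_self]
        omega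
      rw [← hNdef] at hlt
      refine ⟨fun c hc => ?_, by omega⟩
      have hc1 : c = 1 := by
        by_cases hm : m = 1
        · -- determinant
          have hd2 := det_red hφ.1 hRe
          rw [hc, hdet, LinearMap.det_smul, hfk, hm] at hd2
          rw [show (1 : ker φ →ₗ[K] ker φ) = LinearMap.id from rfl, LinearMap.det_id, mul_one] at hd2
          have h6 : (c - 1) ^ 2 = 0 := by
            have h7 : c ^ 2 = 1 := by simpa using hd2
            linear_combination h7 + (1 - c) * h2
          exact sub_eq_zero.1 (pow_eq_zero_iff (two_ne_zero) |>.1 h6)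
        · -- common vector of kernel
          have hb := bad_of_red hRe hc
          obtain ⟨d, hd'⟩ := hb
          have h6 : ∃ v ∈ ker N, φ v = 0 ∧ v ≠ 0 := by
            have h7 : ker (φ.comp (ker N).subtype) ≠ ⊥ := by
              apply LinearMap.ker_ne_bot_of_finrank_lt
              rw [finrank_self]; omega
            obtain ⟨v, hv, hv0⟩ := Submodule.exists_mem_ne_zero_of_ne_bot h7
            exact ⟨v, v.2, hv, fun h => hv0 (Subtype.ext h)⟩
          obtain ⟨v, hv, hv1, hv2⟩ := h6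
          have h8 : R v = v := by
            have := hN v
            rw [LinearMap.mem_ker.1 hv] at this
            exact (sub_eq_zero.1 this.symm)
          have h9 : red R φ e hRe ⟨v, hv1⟩ = c • ⟨v, hv1⟩ := by rw [hc]; rfl
          have h10 := congrArg Subtype.val h9
          rw [coe_red] at h10
          simp only [h8, hv1, zero_smul, sub_zero] at h10
          have h11 : v = c • v := h10
          have h12 : (1 - c) • v = 0 := by rw [sub_smul, one_smul, ← h11, sub_self]
          rcases smul_eq_zero.1 h12 with h | h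
          · exact (sub_eq_zero.1 h).symm
          · exact absurd h hv2
      rw [hc, hc1, one_smul, sub_self, LinearMap.ker_zero, finrank_top, hfk] at hlt
      omega
    · obtain ⟨T5, hT5⟩ := h5 h2
      obtain ⟨p, hp1, hp2⟩ := exists_sc (by omega) hinj he0 (by rw [← hNdef]; exact hu)
      rw [← hNdef] at hp1 hp2
      obtain ⟨φ, hφ, hφa⟩ := avoid (K := K) T5 (Phi K e (N e)) Phi_aff (Phi_nonempty he0 hu)
        [(LinearMap.applyₗ x, 0), (LinearMap.applyₗ (N vz), 0), (LinearMap.applyₗ k, 0), p] (by simp; omega) (by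
          intro r hr
          simp only [List.mem_cons, List.not_mem_nil, or_false] at hr
          rcases hr with rfl | rfl | rfl | rfl
          · exact s1
          · exact s2
          · exact s3
          · exact hp1)
      have a1 : φ x ≠ 0 := hφa (LinearMap.applyₗ x, 0) (by simp)
      have a2 : φ (N vz) ≠ 0 := hφa (LinearMap.applyₗ (N vz), 0) (by simp)
      have a3 : φ k ≠ 0 := hφa (LinearMap.applyₗ k, 0) (by simp)
      have a4 := hφa p (by simp)
      refine fin φ hφ a1 a2 fun hRe => Or.inr ?_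
      have hlt := finrank_kerA_lt hRe heN hk a3
      rw [← hNdef] at hlt
      exact ⟨fun c hc => hp2 φ hφ a4 (bad_of_red hRe hc), by omega⟩
  · -- rank at least three
    obtain ⟨p, hp1, hp2⟩ := exists_sc (by omega) hinj he0 (by rw [← hNdef]; exact hu)
    rw [← hNdef] at hp1 hp2
    have s1 := sat1 he0 hu hxu
    have s2 := sat1 he0 hu hz
    obtain ⟨φ, hφ, hφa⟩ := avoid (K := K) T (Phi K e (N e)) Phi_aff (Phi_nonempty he0 hu)
      [(LinearMap.applyₗ x, 0), (LinearMap.applyₗ (N vz), 0), p] (by simp; omega) (by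
        intro r hr
        simp only [List.mem_cons, List.not_mem_nil, or_false] at hr
        rcases hr with rfl | rfl | rfl
        · exact s1
        · exact s2
        · exact hp1)
    have a1 : φ x ≠ 0 := hφa (LinearMap.applyₗ x, 0) (by simp)
    have a2 : φ (N vz) ≠ 0 := hφa (LinearMap.applyₗ (N vz), 0) (by simp)
    have a4 := hφa p (by simp)
    refine fin φ hφ a1 a2 fun hRe => Or.inr ?_
    have hle := finrank_kerA hRe heN
    have hle2 : finrank K (ker (R - 1) ⊓ ker φ : Submodule K V) ≤ finrank K (ker (R - 1)) :=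
      Submodule.finrank_mono inf_le_left
    rw [← hNdef] at hle hle2
    exact ⟨fun c hc => hp2 φ hφ a4 (bad_of_red hRe hc), by omega⟩

theorem eigen_line {R : V →ₗ[K] V} {v₀ v₁ : V} {l : K} (h1 : R v₁ = l • v₁)
    (hli : LinearIndependent K ![v₁, v₀]) (h0 : ∀ c : K, R v₀ ≠ c • v₀) {c c' μ μ' : K} (hc : c ≠ 0)
    (hc' : c' ≠ 0) (h : R (v₁ + c • v₀) = μ • (v₁ + c • v₀)) (h' : R (v₁ + c' • v₀) = μ' • (v₁ + c' • v₀)) :
    c = c' := by
  rw [map_add, map_smul, h1] at h h'
  have e1 : R v₀ = (c⁻¹ * (μ - l)) • v₁ + μ • v₀ := by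
    have : c⁻¹ • (l • v₁ + c • R v₀) = c⁻¹ • (μ • (v₁ + c • v₀)) := by rw [h]
    have h3 : c⁻¹ * c = 1 := inv_mul_cancel₀ hc
    linear_combination (norm := module) this - h3 • R v₀ + (μ * h3) • v₀
  have e2 : R v₀ = (c'⁻¹ * (μ' - l)) • v₁ + μ' • v₀ := by
    have : c'⁻¹ • (l • v₁ + c' • R v₀) = c'⁻¹ • (μ' • (v₁ + c' • v₀)) := by rw [h']
    have h3 : c'⁻¹ * c' = 1 := inv_mul_cancel₀ hc'
    linear_combination (norm := module) this - h3 • R v₀ + (μ' * h3) • v₀
  have e3 : (c⁻¹ * (μ - l) - c'⁻¹ * (μ' - l)) • v₁ + (μ - μ') • v₀ = 0 := by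
    have := e1.symm.trans e2
    linear_combination (norm := module) this
  have h4 := (LinearIndependent.pair_iff.1 hli) _ _ e3
  have h5 : μ = μ' := sub_eq_zero.1 h4.2
  subst h5
  by_cases h6 : μ - l = 0
  · exfalso
    rw [h6, mul_zero, zero_smul, zero_add] at e1
    exact h0 _ e1
  · have h7 : (c⁻¹ - c'⁻¹) * (μ - l) = 0 := by linear_combination h4.1
    rcases mul_eq_zero.1 h7 with h | h
    · exact inv_injective (sub_eq_zero.1 h)
    · exact absurd h h6

/-- Choice of the vector when `1` is no eigenvalue. -/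
theorem exists_e [FiniteDimensional K V] {R : V →ₗ[K] V} (hns : ∀ c : K, R ≠ c • 1) {y w : V →ₗ[K] K}
    (hy : y ≠ 0) (hw : w ≠ 0) {T : Finset K} (hT : 4 ≤ T.card) :
    ∃ e, y e ≠ 0 ∧ w e ≠ 0 ∧ ∀ c : K, R e ≠ c • e := by
  classical
  have h0 : ∃ v₀, ∀ c : K, R v₀ ≠ c • v₀ := by
    by_contra hcon
    push Not at hcon
    obtain ⟨c, hc⟩ := R.exists_eq_smul_id_of_forall_notLinearIndependent (fun v h => by
      obtain ⟨c, hc⟩ := hcon v
      have := (LinearIndependent.pair_iff.1 h) c (-1) (by rw [hc]; module)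
      exact one_ne_zero (neg_eq_zero.1 this.2))
    exact hns c hc
  obtain ⟨v₀, hv₀⟩ := h0
  by_cases hgood : y v₀ ≠ 0 ∧ w v₀ ≠ 0
  · exact ⟨v₀, hgood.1, hgood.2, hv₀⟩
  obtain ⟨v₁, -, hv₁⟩ := avoid (K := K) (E := V) T Set.univ (fun _ _ _ _ _ => trivial) ⟨0, trivial⟩
    [(y, 0), (w, 0)] (by simp; omega) (by
      intro p hp
      simp only [List.mem_cons, List.not_mem_nil, or_false] at hp
      rcases hp with rfl | rfl
      · by_contra hcon
        push Not at hcon
        exact hy (LinearMap.ext fun v => hcon v trivial)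
      · by_contra hcon
        push Not at hcon
        exact hw (LinearMap.ext fun v => hcon v trivial))
  have hy1 : y v₁ ≠ 0 := hv₁ (y, 0) (by simp)
  have hw1 : w v₁ ≠ 0 := hv₁ (w, 0) (by simp)
  by_cases hv1 : ∀ c : K, R v₁ ≠ c • v₁
  · exact ⟨v₁, hy1, hw1, hv1⟩
  push Not at hv1
  obtain ⟨l, hl⟩ := hv1
  have hv10 : v₁ ≠ 0 := by rintro rfl; simp at hy1
  have hli : LinearIndependent K ![v₁, v₀] := by
    apply li2 hv10
    intro h
    obtain ⟨s, hs⟩ := Submodule.mem_span_singleton.1 h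
    apply hv₀ l
    rw [← hs, map_smul, hl, smul_comm]
  -- the bad parameters
  have hb1 : ∃ c₁ : K, ∀ c, c ≠ c₁ → y (v₁ + c • v₀) ≠ 0 ∧ w (v₁ + c • v₀) ≠ 0 := by
    by_cases hy0 : y v₀ = 0
    · refine ⟨-(w v₁ / w v₀), fun c hc => ⟨?_, ?_⟩⟩
      · rw [map_add, map_smul, hy0, smul_zero, add_zero]; exact hy1
      · rw [map_add, map_smul, smul_eq_mul]
        intro h
        by_cases hw0 : w v₀ = 0
        · rw [hw0, mul_zero, add_zero] at h; exact hw1 h
        · apply hc
          field_simp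
          linear_combination h
    · have hw0 : w v₀ = 0 := by
        by_contra h
        exact hgood ⟨hy0, h⟩
      refine ⟨-(y v₁ / y v₀), fun c hc => ⟨?_, ?_⟩⟩
      · rw [map_add, map_smul, smul_eq_mul]
        intro h
        apply hc
        field_simp
        linear_combination h
      · rw [map_add, map_smul, hw0, smul_zero, add_zero]; exact hw1
  obtain ⟨c₁, hc₁⟩ := hb1
  have hb2 : ∃ c₂ : K, ∀ c, c ≠ 0 → c ≠ c₂ → ∀ μ : K, R (v₁ + c • v₀) ≠ μ • (v₁ + c • v₀) := by
    by_cases h : ∃ c₂ : K, c₂ ≠ 0 ∧ ∃ μ : K, R (v₁ + c₂ • v₀) = μ • (v₁ + c₂ • v₀)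
    · obtain ⟨c₂, hc₂, μ, hμ⟩ := h
      refine ⟨c₂, fun c hc hne μ' hμ' => hne ?_⟩
      exact eigen_line hl hli hv₀ hc hc₂ hμ' hμ
    · refine ⟨0, fun c hc _ μ hμ => h ⟨c, hc, μ, hμ⟩⟩
  obtain ⟨c₂, hc₂⟩ := hb2
  have hcard : ({0, c₁, c₂} : Finset K).card < T.card := lt_of_le_of_lt Finset.card_le_three (by omega)
  obtain ⟨c, -, hc⟩ := Finset.exists_mem_notMem_of_card_lt_card hcard
  simp only [Finset.mem_insert, Finset.mem_singleton, not_or] at hc
  exact ⟨v₁ + c • v₀, (hc₁ c hc.2.1).1, (hc₁ c hc.2.1).2, hc₂ c hc.1 hc.2.2⟩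

/-- Selection when `1` is not an eigenvalue. -/
theorem selB [FiniteDimensional K V] {m : ℕ} (hd : finrank K V = m + 2) {R : V →ₗ[K] V} (hdet : R.det = 1)
    (hns : ∀ c : K, R ≠ c • 1) (hk1 : ker (R - 1) = ⊥) {x : V} (hx : x ≠ 0)
    {y : V →ₗ[K] K} (hy : y ≠ 0) {T : Finset K} (hT : 4 ≤ T.card) : Sel m R x y := by
  set N := R - 1 with hNdef
  have hN : ∀ v, N v = R v - v := by intro v; rw [hNdef]; simp
  have hNinj : Function.Injective N := LinearMap.ker_eq_bot.1 hk1
  have hNsurj : Function.Surjective N := LinearMap.injective_iff_surjective.1 hNinj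
  have hex : ∃ v, v ∉ Submodule.span K {x} := by
    by_contra hcon
    push Not at hcon
    have h1 : Submodule.span K {x} = ⊤ := eq_top_iff.2 fun v _ => hcon v
    have h2 := finrank_span_singleton (K := K) hx
    rw [h1, finrank_top] at h2
    omega
  obtain ⟨v₂, hv₂⟩ := hex
  obtain ⟨ψ, hψ0, hψ⟩ := Submodule.exists_le_ker_of_notMem hv₂
  have hψx : ψ x = 0 := hψ (Submodule.mem_span_singleton_self x)
  have hψN : ψ.comp N ≠ 0 := by
    intro h
    obtain ⟨v, hv⟩ := hNsurj v₂
    apply hψ0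
    rw [← hv]
    exact congrArg (fun g => g v) h
  obtain ⟨e, he1, he2, he3⟩ := exists_e hns hy hψN hT
  have he2' : ψ (N e) ≠ 0 := he2
  have he0 : e ≠ 0 := by rintro rfl; simp at he1
  have hu0 : N e ≠ 0 := by intro h; rw [h] at he2'; simp at he2'
  have hu : N e ∉ Submodule.span K {e} := by
    intro h
    obtain ⟨c, hc⟩ := Submodule.mem_span_singleton.1 h
    apply he3 (c + 1)
    rw [hN] at hc
    rw [add_smul, hc]; module
  have hxu : x ∉ Submodule.span K {N e} := by
    intro h
    obtain ⟨c, hc⟩ := Submodule.mem_span_singleton.1 h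
    have h1 : ψ (c • N e) = 0 := by rw [hc, hψx]
    rw [map_smul, smul_eq_mul] at h1
    rcases mul_eq_zero.1 h1 with h | h
    · rw [h, zero_smul] at hc; exact hx hc.symm
    · exact he2' h
  have hinj := inj_of_det hdet
  have fin : ∀ φ ∈ Phi K e (N e), φ x ≠ 0 →
      (∀ hRe : φ (R e) = 1, m = 0 ∨ ((∀ c : K, red R φ e hRe ≠ c • 1) ∧
      finrank K (ker (red R φ e hRe - 1)) + 2 ≤ m + 1)) → Sel m R x y := by
    rintro φ ⟨hφ1, hφ2⟩ hφx hrest
    have hRe : φ (R e) = 1 := by
      rw [hN, map_sub, hφ1] at hφ2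
      exact sub_eq_zero.1 hφ2
    refine ⟨φ, e, hφ1, hRe, hφx, he1, ?_, ?_, hrest hRe⟩
    · rw [← hN]; exact hu0
    · by_contra hcon
      push Not at hcon
      obtain ⟨v, hv⟩ := hNsurj e
      have h1 := hcon (v - φ v • e) (by rw [map_sub, map_smul, hφ1, smul_eq_mul, mul_one, sub_self])
      rw [map_sub, map_sub, map_smul, map_smul, hRe, smul_eq_mul, mul_one, ← map_sub, ← hN, hv, hφ1] at h1
      exact one_ne_zero h1
  have s1 := sat1 he0 hu hxu
  by_cases hm0 : m = 0
  · obtain ⟨φ, hφ, hφx⟩ := s1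
    exact fin φ hφ hφx fun _ => Or.inl hm0
  obtain ⟨p, hp1, hp2⟩ := exists_sc (by omega) hinj he0 (by rw [← hNdef]; exact hu)
  rw [← hNdef] at hp1 hp2
  by_cases hm1 : m = 1
  · obtain ⟨f, hf⟩ := hNsurj e
    have hfs : ∃ φ ∈ Phi K e (N e), φ f ≠ -1 := by
      by_cases hf2 : f ∈ Submodule.span K {e, N e}
      · obtain ⟨a, b, hab⟩ := Submodule.mem_span_pair.1 hf2
        obtain ⟨φ, hφ⟩ := Phi_nonempty (K := K) he0 hu
        refine ⟨φ, hφ, ?_⟩
        have h1 : φ f = a := by
          rw [← hab, map_add, map_smul, map_smul, hφ.1, hφ.2, smul_zero, add_zero, smul_eq_mul, mul_one]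
        rw [h1]
        rintro rfl
        refine no_plane (by rw [hd, hm1]) hdet (by rw [← hNdef]; exact hk1) (f := f) (β := b) ?_ ?_
        · rw [← hNdef, hf]
          rw [LinearIndependent.pair_iff]
          intro s t hst
          have h2 : s • e + t • N e = 0 := by
            have := congrArg N hst
            rw [map_add, map_smul, map_smul, map_zero, hf] at this
            exact this
          exact (LinearIndependent.pair_iff.1 (li2 he0 hu)) s t h2
        · rw [← hNdef, hf]
          conv_lhs => rw [← hab]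
          module
      · exact sat2 he0 hu hf2 (-1)
    obtain ⟨φ, hφ, hφa⟩ := avoid (K := K) T (Phi K e (N e)) Phi_aff (Phi_nonempty he0 hu)
      [(LinearMap.applyₗ x, 0), (LinearMap.applyₗ f, -1), p] (by simp; omega) (by
        intro r hr
        simp only [List.mem_cons, List.not_mem_nil, or_false] at hr
        rcases hr with rfl | rfl | rfl
        · exact s1
        · exact hfs
        · exact hp1)
    have a1 : φ x ≠ 0 := hφa (LinearMap.applyₗ x, 0) (by simp)
    have a2 : φ f ≠ -1 := hφa (LinearMap.applyₗ f, -1) (by simp)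
    have a3 := hφa p (by simp)
    refine fin φ hφ a1 fun hRe => Or.inr ⟨fun c hc => hp2 φ hφ a3 (bad_of_red hRe hc), ?_⟩
    rw [kerB_bot hRe hφ.1 (by rw [← hNdef]; exact hNinj) (by rw [← hNdef]; exact hf) a2, finrank_bot]
    omega
  · obtain ⟨φ, hφ, hφa⟩ := avoid (K := K) T (Phi K e (N e)) Phi_aff (Phi_nonempty he0 hu)
      [(LinearMap.applyₗ x, 0), p] (by simp; omega) (by
        intro r hr
        simp only [List.mem_cons, List.not_mem_nil, or_false] at hr
        rcases hr with rfl | rfl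
        · exact s1
        · exact hp1)
    have a1 : φ x ≠ 0 := hφa (LinearMap.applyₗ x, 0) (by simp)
    have a3 := hφa p (by simp)
    refine fin φ hφ a1 fun hRe => Or.inr ⟨fun c hc => hp2 φ hφ a3 (bad_of_red hRe hc), ?_⟩
    have := finrank_kerB hRe (φ := φ) (e := e) (by rw [← hNdef]; exact hNinj)
    omega

end Cfsg.Agent.Mdx.RU
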