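import Cfsg.Agent.Mdx.RU5

/-!
Products of two regular unipotent maps: main induction, transvections, matrices.
-/

set_option autoImplicit false

namespace Cfsg.Agent.Mdx.RU

open LinearMap Module

universe u v

theorem fac_main {K : Type u} [Field K] {T : Finset K} (hT : 4 ≤ T.card)
    (h5 : (2 : K) ≠ 0 → ∃ T : Finset K, 5 ≤ T.card) :
    ∀ (m : ℕ) (V : Type v) [AddCommGroup V] [Module K V] [FiniteDimensional K V],
      finrank K V = m + 1 → ∀ (R : V →ₗ[K] V), R.det = 1 →
      (m = 0 ∨ ((∀ c : K, R ≠ c • 1) ∧ finrank K (ker (R - 1)) + 2 ≤ m + 1)) →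
      ∀ (x : V), x ≠ 0 → ∀ (y : V →ₗ[K] K), y ≠ 0 → Fac m R x y := by
  intro m
  induction m with
  | zero =>
    intro V _ _ _ hd R hdet _ x hx y hy
    have hR : R = 1 := by
      have hsp : ∀ v : V, ∃ c : K, c • x = v := (finrank_eq_one_iff_of_nonzero' x hx).1 hd
      obtain ⟨d, hd'⟩ := hsp (R x)
      have h1 : R = d • LinearMap.id := by
        apply LinearMap.ext
        intro v
        obtain ⟨c, rfl⟩ := hsp v
        rw [map_smul, ← hd', LinearMap.smul_apply, LinearMap.id_apply, smul_comm]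
      rw [h1, LinearMap.det_smul, LinearMap.det_id, hd, zero_add, pow_one, mul_one] at hdet
      rw [h1, hdet, one_smul]; rfl
    refine ⟨1, 1, by rw [hR]; rfl, by simp, by simp, by simpa using hx, ?_⟩
    by_contra hcon
    push Not at hcon
    apply hy
    apply LinearMap.ext
    intro v
    simpa using hcon v
  | succ m ih =>
    intro V _ _ _ hd R hdet hc x hx y hy
    have hc' := hc.resolve_left (by omega)
    have hsel : Sel m R x y := by
      by_cases hk : ker (R - 1) = ⊥
      · exact selB hd hdet hc'.1 hk hx hy hT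
      · exact selA hd hdet hk hc'.2 hx hy hT h5
    obtain ⟨φ, e, he, hRe, h1, h2, h3, ⟨v, hv1, hv2⟩, h4⟩ := hsel
    refine Fac.step he hRe h1 h2 (ih (ker φ) ?_ _ ?_ h4 _ ?_ _ ?_)
    · have h1' := LinearMap.finrank_range_add_finrank_ker φ
      have h3' : finrank K (range φ) = 1 := by
        have : range φ = ⊤ := LinearMap.range_eq_top.2 (LinearMap.surjective (by
          rintro rfl; simp at he))
        rw [this, finrank_top, finrank_self]
      omega
    · rw [det_red he hRe, hdet]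
    · intro h
      exact h3 (congrArg Subtype.val h)
    · intro h
      apply hv2
      exact congrArg (fun g => g ⟨v, hv1⟩) h

variable {K : Type u} {V : Type v} [Field K] [AddCommGroup V] [Module K V]

/-- A chain map. -/
theorem chain_pow {m : ℕ} (hm : 2 ≤ m) {b : Fin (m + 1) → V} {M : V →ₗ[K] V} {c : K}
    (h0 : M (b 0) = 0)
    (h1 : ∀ (j : ℕ) (hj : j + 1 < m), M (b ⟨j + 1, by omega⟩) = b ⟨j, by omega⟩)
    (h2 : M (b ⟨m, by omega⟩) = b ⟨m - 1, by omega⟩ + c • b 0) :
    (∀ j : Fin (m + 1), (M ^ (m + 1)) (b j) = 0) ∧ (M ^ m) (b ⟨m, by omega⟩) = b 0 := by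
  have key : ∀ (j : ℕ) (hj : j < m), (M ^ j) (b ⟨j, by omega⟩) = b 0 := by
    intro j
    induction j with
    | zero => intro _; rfl
    | succ j ih =>
      intro hj
      rw [pow_succ, Module.End.mul_apply, h1 j hj, ih (by omega)]
  have kill0 : ∀ i : ℕ, 1 ≤ i → (M ^ i) (b 0) = 0 := by
    intro i hi
    obtain ⟨i, rfl⟩ : ∃ i', i = i' + 1 := ⟨i - 1, by omega⟩
    rw [pow_succ, Module.End.mul_apply, h0, map_zero]
  have last : (M ^ m) (b ⟨m, by omega⟩) = b 0 := by
    obtain ⟨k, rfl⟩ : ∃ k, m = k + 1 := ⟨m - 1, by omega⟩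
    rw [pow_succ, Module.End.mul_apply, h2, map_add, map_smul, kill0 k (by omega), smul_zero, add_zero]
    exact key k (by omega)
  refine ⟨fun j => ?_, last⟩
  by_cases hj : (j : ℕ) < m
  · have h3 : (M ^ ((j : ℕ) + 1)) (b j) = 0 := by
      rw [pow_succ', Module.End.mul_apply]
      have := key j hj
      rw [this, h0]
    have h4 : m + 1 = (m - j) + (j + 1) := by omega
    rw [h4, pow_add, Module.End.mul_apply, h3, map_zero]
  · have h3 : j = ⟨m, by omega⟩ := Fin.ext (by have := j.2; simp; omega)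
    rw [h3, pow_succ', Module.End.mul_apply, last, h0]

/-- A basis adapted to a transvection. -/
theorem exists_chain_basis [FiniteDimensional K V] {m : ℕ} (hm : 1 ≤ m) (hd : finrank K V = m + 1) {u : V}
    {ψ : V →ₗ[K] K} (hu : u ≠ 0) (hψ : ψ ≠ 0) (hψu : ψ u = 0) :
    ∃ b : Basis (Fin (m + 1)) K V, b 0 = u ∧ ψ (b ⟨m, by omega⟩) = 1 ∧
      ∀ (j : ℕ) (hj : j < m), ψ (b ⟨j, by omega⟩) = 0 := by
  obtain ⟨k, rfl⟩ : ∃ k, m = k + 1 := ⟨m - 1, by omega⟩
  obtain ⟨θ, hθ⟩ := exists_dual (K := K) (v := ![u]) (by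
    rw [linearIndependent_unique_iff]; exact hu) ![1]
  have hθu : θ u = 1 := hθ 0
  obtain ⟨v₀, hv₀⟩ : ∃ v, ψ v = 1 := LinearMap.surjective hψ 1
  set v₁ := v₀ - θ v₀ • u with hv₁
  have h1 : ψ v₁ = 1 := by rw [hv₁, map_sub, map_smul, hψu, smul_zero, sub_zero, hv₀]
  have h2 : θ v₁ = 0 := by rw [hv₁, map_sub, map_smul, hθu, smul_eq_mul, mul_one, sub_self]
  let Z : Submodule K V := ker (θ.prod ψ)
  have hZ : finrank K Z = k := by
    have h3 := LinearMap.finrank_range_add_finrank_ker (θ.prod ψ)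
    have h4 : range (θ.prod ψ) = ⊤ := by
      rw [eq_top_iff]
      rintro ⟨a, b⟩ -
      refine ⟨a • u + b • v₁, ?_⟩
      rw [LinearMap.prod_apply]
      ext
      · simp [hθu, h2]
      · simp [hψu, h1]
    rw [h4, finrank_top, finrank_prod, finrank_self] at h3
    change finrank K (ker (θ.prod ψ)) = k
    omega
  let z : Basis (Fin k) K Z := Module.finBasisOfFinrankEq K Z hZ
  have hz : ∀ i, θ (z i : V) = 0 ∧ ψ (z i : V) = 0 := by
    intro i
    have := (z i).2
    rw [LinearMap.mem_ker, LinearMap.prod_apply] at this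
    exact Prod.ext_iff.1 this
  have hli1 : LinearIndependent K (fun i => (z i : V)) := by
    have := z.linearIndependent.map' Z.subtype (Submodule.ker_subtype _)
    exact this
  have hli2 : LinearIndependent K (Fin.snoc (fun i => (z i : V)) v₁ : Fin (k + 1) → V) := by
    rw [linearIndependent_finSnoc]
    refine ⟨hli1, ?_⟩
    intro h
    have h3 : Submodule.span K (Set.range fun i => (z i : V)) ≤ ker ψ := by
      rw [Submodule.span_le]
      rintro _ ⟨i, rfl⟩
      exact (hz i).2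
    have h4 : ψ v₁ = 0 := h3 h
    rw [h1] at h4
    exact one_ne_zero h4
  have hli3 : LinearIndependent K (Fin.cons u (Fin.snoc (fun i => (z i : V)) v₁ : Fin (k + 1) → V) :
      Fin (k + 1 + 1) → V) := by
    rw [linearIndependent_finCons]
    refine ⟨hli2, ?_⟩
    intro h
    have h3 : Submodule.span K (Set.range (Fin.snoc (fun i => (z i : V)) v₁ : Fin (k + 1) → V)) ≤ ker θ := by
      rw [Submodule.span_le]
      rintro _ ⟨i, rfl⟩
      refine Fin.lastCases ?_ (fun i => ?_) i
      · rw [Fin.snoc_last]; exact h2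
      · rw [Fin.snoc_castSucc]; exact (hz i).1
    have h4 : θ u = 0 := h3 h
    rw [hθu] at h4
    exact one_ne_zero h4
  let b : Basis (Fin (k + 1 + 1)) K V := basisOfLinearIndependentOfCardEqFinrank hli3 (by
    rw [hd, Fintype.card_fin])
  have hb : ∀ i, b i = (Fin.cons u (Fin.snoc (fun i => (z i : V)) v₁ : Fin (k + 1) → V) :
      Fin (k + 1 + 1) → V) i := by
    intro i; simp [b]
  refine ⟨b, by rw [hb]; rfl, ?_, ?_⟩
  · rw [hb]
    have : (⟨k + 1, by omega⟩ : Fin (k + 1 + 1)) = Fin.succ (Fin.last k) := rfl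
    rw [this, Fin.cons_succ, Fin.snoc_last, h1]
  · intro j hj
    rw [hb]
    rcases Nat.eq_zero_or_pos j with rfl | hj0
    · exact hψu
    · obtain ⟨i, rfl⟩ : ∃ i, j = i + 1 := ⟨j - 1, by omega⟩
      have : (⟨i + 1, by omega⟩ : Fin (k + 1 + 1)) = Fin.succ (Fin.castSucc ⟨i, by omega⟩) := rfl
      rw [this, Fin.cons_succ, Fin.snoc_castSucc]
      exact (hz _).2

end Cfsg.Agent.Mdx.RU
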