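import Cfsg.Agent.Mdx.RU6

/-!
Products of two regular unipotent maps: transvections and matrices.
-/

set_option autoImplicit false

namespace Cfsg.Agent.Mdx.RU

open LinearMap Module

universe u v

section

variable {K : Type u} {V : Type v} [Field K] [AddCommGroup V] [Module K V]

/-- Regular unipotent maps. -/
def Reg (m : ℕ) (B : V →ₗ[K] V) : Prop := (B - 1) ^ (m + 1) = 0 ∧ ∃ x, ((B - 1) ^ m) x ≠ 0

theorem Reg.of_inv {m : ℕ} {X C : V →ₗ[K] V} (h : Reg m X) (h1 : C * X = 1) (h2 : X * C = 1) : Reg m C := by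
  obtain ⟨h3, x, h4⟩ := h
  have e1 : C - 1 = (-C) * (X - 1) := by rw [neg_mul, mul_sub, h1, mul_one]; abel
  have hcom : Commute (-C) (X - 1) := by
    show (-C) * (X - 1) = (X - 1) * (-C)
    rw [neg_mul, mul_neg, mul_sub, sub_mul, h1, h2, mul_one, one_mul]
  have e2 : ∀ k, (C - 1) ^ k = (-C) ^ k * (X - 1) ^ k := fun k => by rw [e1, hcom.mul_pow]
  refine ⟨by rw [e2, h3, mul_zero], x, ?_⟩
  rw [e2, Module.End.mul_apply]
  intro h5
  apply h4
  have h6 : (-X) * (-C) = 1 := by rw [neg_mul_neg, h2]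
  have h7 : Commute (-X) (-C) := by
    show (-X) * (-C) = (-C) * (-X)
    rw [neg_mul_neg, neg_mul_neg, h1, h2]
  have h8 : (-X) ^ m * (-C) ^ m = 1 := by rw [← h7.mul_pow, h6, one_pow]
  have h9 := congrArg ((-X) ^ m) h5
  rw [← Module.End.mul_apply, h8, map_zero] at h9
  exact h9

/-- Transvections. -/
theorem trans_fac [FiniteDimensional K V] {m : ℕ} (hm : 2 ≤ m) (hd : finrank K V = m + 1) {R : V →ₗ[K] V}
    (hdet : R.det = 1) (hne : R ≠ 1) (hk : m + 1 < finrank K (ker (R - 1)) + 2) :
    ∃ B C : V →ₗ[K] V, R = B.comp C ∧ Reg m B ∧ Reg m C := by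
  set N := R - 1 with hNdef
  have hN : ∀ v, R v = v + N v := by intro v; rw [hNdef]; simp
  have hN0 : N ≠ 0 := by rw [hNdef, sub_ne_zero]; exact hne
  have hrk := LinearMap.finrank_range_add_finrank_ker N
  have hr : finrank K (range N) ≤ 1 := by omega
  have hr1 : finrank K (range N) = 1 := by
    have h1 : finrank K (range N) ≠ 0 := by
      intro h
      apply hN0
      exact LinearMap.range_eq_bot.1 (Submodule.finrank_eq_zero.1 h)
    omega
  obtain ⟨u', hu0, hu'⟩ := finrank_eq_one_iff'.1 hr1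
  set u : V := (u' : V) with hudef
  have hu0' : u ≠ 0 := fun h => hu0 (Subtype.ext h)
  obtain ⟨θ, hθ⟩ := exists_dual (K := K) (v := ![u]) (by
    rw [linearIndependent_unique_iff]; exact hu0') ![1]
  have hθu : θ u = 1 := hθ 0
  let ψ : V →ₗ[K] K := θ.comp N
  have hψN : ∀ v, N v = ψ v • u := by
    intro v
    obtain ⟨c, hc⟩ := hu' ⟨N v, v, rfl⟩
    have h1 : c • u = N v := congrArg Subtype.val hc
    change N v = θ (N v) • u
    rw [← h1, map_smul, hθu, smul_eq_mul, mul_one]
  have hψ0 : ψ ≠ 0 := by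
    intro h
    apply hN0
    apply LinearMap.ext
    intro v
    rw [hψN, h]; simp
  have hψu : ψ u = 0 := by
    have h1 : R = LinearMap.transvection ψ u := by
      apply LinearMap.ext
      intro v
      rw [hN, hψN, LinearMap.transvection.apply]
    rw [h1, LinearMap.transvection.det] at hdet
    linear_combination hdet
  obtain ⟨b, hb0, hbm, hbj⟩ := exists_chain_basis (by omega) hd hu0' hψ0 hψu
  -- the nilpotent map
  let D : V →ₗ[K] V := b.constr K (fun j => if h : (j : ℕ) = 0 then 0 else b ⟨(j : ℕ) - 1, by omega⟩)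
  have hD : ∀ j, D (b j) = if h : (j : ℕ) = 0 then 0 else b ⟨(j : ℕ) - 1, by omega⟩ :=
    fun j => b.constr_basis K _ j
  have hD0 : D (b 0) = 0 := by
    rw [hD]; simp
  have hDj : ∀ (j : ℕ) (hj : j + 1 < m + 1), D (b ⟨j + 1, hj⟩) = b ⟨j, by omega⟩ := by
    intro j hj
    rw [hD]; simp
  have hDm : D (b ⟨m, by omega⟩) = b ⟨m - 1, by omega⟩ := by
    have := hDj (m - 1) (by omega)
    convert this using 3
    apply Fin.ext
    simp; omega
  have hψD : ∀ v, ψ (D v) = 0 := by
    intro v
    have : ψ.comp D = 0 := by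
      apply b.ext
      intro j
      rw [LinearMap.comp_apply, LinearMap.zero_apply]
      by_cases hj : (j : ℕ) = 0
      · have : j = 0 := Fin.ext hj
        rw [this, hD0, map_zero]
      · have h1 := hDj ((j : ℕ) - 1) (by have := j.2; omega)
        have h2 : (⟨(j : ℕ) - 1 + 1, by have := j.2; omega⟩ : Fin (m + 1)) = j := Fin.ext (by simp; omega)
        rw [h2] at h1
        rw [h1]
        exact hbj _ (by have := j.2; omega)
    exact congrArg (fun g => g v) this
  have hDu : D u = 0 := by rw [← hb0]; exact hD0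
  -- the two chain facts
  have c1 := chain_pow hm (b := b) (M := D) (c := 0) hD0 (fun j hj => hDj j (by omega))
    (by rw [zero_smul, add_zero]; exact hDm)
  have c2 := chain_pow hm (b := b) (M := D + ψ.smulRight u) (c := 1)
    (by
      rw [LinearMap.add_apply, hD0, LinearMap.smulRight_apply]
      have : ψ (b 0) = 0 := hbj 0 (by omega)
      rw [this, zero_smul, add_zero])
    (fun j hj => by
      rw [LinearMap.add_apply, hDj j (by omega), LinearMap.smulRight_apply, hbj (j + 1) (by omega), zero_smul,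
        add_zero])
    (by rw [LinearMap.add_apply, hDm, LinearMap.smulRight_apply, hbm, hb0])
  have reg1 : Reg m (1 + D) := by
    have : (1 + D) - 1 = D := by abel
    refine ⟨?_, b ⟨m, by omega⟩, ?_⟩
    · rw [this]
      apply b.ext
      intro j
      rw [c1.1 j]; simp
    · rw [this, c1.2, hb0]; exact hu0'
  have reg2 : Reg m (1 + (D + ψ.smulRight u)) := by
    have : (1 + (D + ψ.smulRight u)) - 1 = D + ψ.smulRight u := by abel
    refine ⟨?_, b ⟨m, by omega⟩, ?_⟩
    · rw [this]
      apply b.ext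
      intro j
      rw [c2.1 j]; simp
    · rw [this, c2.2, hb0]; exact hu0'
  -- inverse of 1 + D
  have hnil : IsNilpotent D := ⟨m + 1, by
    have := reg1.1
    rwa [add_sub_cancel_left] at this⟩
  have hunit : IsUnit (1 + D) := hnil.isUnit_one_add
  obtain ⟨X, hX⟩ := hunit
  have reg3 : Reg m ((X⁻¹ : (V →ₗ[K] V)ˣ) : V →ₗ[K] V) := by
    refine reg1.of_inv ?_ ?_
    · rw [← hX]; exact X.inv_mul
    · rw [← hX]; exact X.mul_inv
  refine ⟨1 + (D + ψ.smulRight u), ((X⁻¹ : (V →ₗ[K] V)ˣ) : V →ₗ[K] V), ?_, reg2, reg3⟩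
  have h1 : 1 + (D + ψ.smulRight u) = R * (1 + D) := by
    apply LinearMap.ext
    intro v
    rw [Module.End.mul_apply, hN, hψN, LinearMap.add_apply, LinearMap.add_apply, LinearMap.add_apply,
      Module.End.one_apply, LinearMap.smulRight_apply, map_add, hψD, add_zero]
    abel
  change R = (1 + (D + ψ.smulRight u)) * ((X⁻¹ : (V →ₗ[K] V)ˣ) : V →ₗ[K] V)
  rw [h1, mul_assoc, ← hX, X.mul_inv, mul_one]

end

section Mat

variable {K : Type u} [Field K]

theorem reg_basis {V : Type v} [AddCommGroup V] [Module K V] [FiniteDimensional K V] {m : ℕ}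
    (hd : finrank K V = m + 1) {B : V →ₗ[K] V} (h : Reg m B) :
    ∃ b : Basis (Fin (m + 1)) K V, ∀ j : Fin (m + 1), (B - 1) (b j) =
      if h : (j : ℕ) = 0 then 0 else b ⟨(j : ℕ) - 1, by omega⟩ := by
  classical
  obtain ⟨h1, x, h2⟩ := h
  set A := B - 1 with hA
  have hkill : ∀ k, m + 1 ≤ k → A ^ k = 0 := by
    intro k hk
    obtain ⟨l, rfl⟩ := Nat.exists_eq_add_of_le hk
    rw [pow_add, h1, zero_mul]
  let w : Fin (m + 1) → V := fun j => (A ^ (m - j)) x
  have hli : LinearIndependent K w := by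
    rw [Fintype.linearIndependent_iff]
    intro c hc
    by_contra hcon
    push Not at hcon
    obtain ⟨j₀, hj₀, hmax⟩ := (Finset.univ.filter (fun j => c j ≠ 0)).exists_max_image id
      (by obtain ⟨i, hi⟩ := hcon; exact ⟨i, by simp [hi]⟩)
    have hc0 : c j₀ ≠ 0 := by simpa using hj₀
    have h3 := congrArg (A ^ (j₀ : ℕ)) hc
    rw [map_sum, map_zero, Finset.sum_eq_single j₀] at h3
    · rw [map_smul] at h3
      have h4 : (A ^ (j₀ : ℕ)) (w j₀) = (A ^ m) x := by
        change (A ^ (j₀ : ℕ)) ((A ^ (m - j₀)) x) = _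
        rw [← Module.End.mul_apply, ← pow_add]
        congr 2
        have := j₀.2
        omega
      rw [h4] at h3
      rcases smul_eq_zero.1 h3 with h | h
      · exact hc0 h
      · exact h2 h
    · intro j _ hj
      by_cases hcj : c j = 0
      · rw [hcj, zero_smul, map_zero]
      · have h5 : j ≤ j₀ := hmax j (by simp [hcj])
        have h6 : j < j₀ := lt_of_le_of_ne h5 hj
        rw [map_smul]
        have h7 : (A ^ (j₀ : ℕ)) (w j) = 0 := by
          change (A ^ (j₀ : ℕ)) ((A ^ (m - j)) x) = _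
          rw [← Module.End.mul_apply, ← pow_add, hkill _ (by have := Fin.lt_def.1 h6; have := j.2; omega)]
          rfl
        rw [h7, smul_zero]
    · intro h; exact absurd (Finset.mem_univ _) h
  let b : Basis (Fin (m + 1)) K V := basisOfLinearIndependentOfCardEqFinrank hli (by
    rw [hd, Fintype.card_fin])
  have hb : ∀ i, b i = (A ^ (m - i)) x := by intro i; simp [b, w]
  refine ⟨b, fun j => ?_⟩
  rw [hb]
  split_ifs with h
  · rw [h, ← Module.End.mul_apply, ← pow_succ']
    rw [show m - 0 + 1 = m + 1 from rfl, h1]; rfl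
  · rw [hb, ← Module.End.mul_apply, ← pow_succ']
    congr 2
    have := j.2
    simp; omega

theorem reg_conj {m : ℕ} {B : (Fin (m + 1) → K) →ₗ[K] (Fin (m + 1) → K)} (h : Reg m B)
    {J : GL (Fin (m + 1)) K}
    (hJ : ∀ i j : Fin (m + 1), (J : Matrix (Fin (m + 1)) (Fin (m + 1)) K) i j =
      if i = j then 1 else if j.val = i.val + 1 then 1 else 0) :
    ∃ P : GL (Fin (m + 1)) K, LinearMap.toMatrix' B = ((P * J * P⁻¹ : GL (Fin (m + 1)) K) :
      Matrix (Fin (m + 1)) (Fin (m + 1)) K) := by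
  obtain ⟨b, hb⟩ := reg_basis (V := Fin (m + 1) → K) (by simp) h
  have hJ' : LinearMap.toMatrix b b B = (J : Matrix (Fin (m + 1)) (Fin (m + 1)) K) := by
    ext i j
    rw [LinearMap.toMatrix_apply, hJ]
    have h1 : B (b j) = b j + (B - 1) (b j) := by simp
    rw [h1, hb j]
    by_cases hj : (j : ℕ) = 0
    · rw [dif_pos hj, add_zero, b.repr_self, Finsupp.single_apply]
      by_cases hij : i = j
      · rw [if_pos hij.symm, if_pos hij]
      · rw [if_neg (Ne.symm hij), if_neg hij, if_neg (by omega)]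
    · rw [dif_neg hj, map_add, b.repr_self, b.repr_self, Finsupp.add_apply, Finsupp.single_apply,
        Finsupp.single_apply]
      by_cases hij : i = j
      · rw [if_pos hij.symm, if_pos hij, if_neg, add_zero]
        intro h
        have := congrArg Fin.val h
        simp only at this
        rw [hij] at this
        omega
      · rw [if_neg (Ne.symm hij), if_neg hij, zero_add]
        by_cases h2 : j.val = i.val + 1
        · rw [if_pos h2, if_pos (Fin.ext (by simp; omega))]
        · rw [if_neg h2, if_neg]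
          intro h
          apply h2
          have := congrArg Fin.val h
          simp only at this
          omega
  let P₁ : Matrix (Fin (m + 1)) (Fin (m + 1)) K := (Pi.basisFun K (Fin (m + 1))).toMatrix b
  let P₂ : Matrix (Fin (m + 1)) (Fin (m + 1)) K := b.toMatrix (Pi.basisFun K (Fin (m + 1)))
  have e1 : P₁ * P₂ = 1 := Basis.toMatrix_mul_toMatrix_flip _ _
  have e2 : P₂ * P₁ = 1 := Basis.toMatrix_mul_toMatrix_flip _ _
  let P : GL (Fin (m + 1)) K := ⟨P₁, P₂, e1, e2⟩
  refine ⟨P, ?_⟩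
  have h3 := basis_toMatrix_mul_linearMap_toMatrix_mul_basis_toMatrix (Pi.basisFun K (Fin (m + 1))) b
    (Pi.basisFun K (Fin (m + 1))) b B
  rw [hJ'] at h3
  have h4 : LinearMap.toMatrix' B = LinearMap.toMatrix (Pi.basisFun K (Fin (m + 1)))
    (Pi.basisFun K (Fin (m + 1))) B := by
    rw [LinearMap.toMatrix_eq_toMatrix']
  rw [h4, ← h3]
  rfl

theorem exists_five {T : Finset K} (hT : 4 ≤ T.card) (h2 : (2 : K) ≠ 0) : ∃ T : Finset K, 5 ≤ T.card := by
  classical
  have hcard : ({0, 1, -1} : Finset K).card < T.card := lt_of_le_of_lt Finset.card_le_three (by omega)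
  obtain ⟨c, -, hc⟩ := Finset.exists_mem_notMem_of_card_lt_card hcard
  simp only [Finset.mem_insert, Finset.mem_singleton, not_or] at hc
  obtain ⟨h0, h1, h3⟩ := hc
  refine ⟨{0, 1, -1, c, -c}, ?_⟩
  have hcc : c ≠ -c := by
    intro h
    have : (2 : K) * c = 0 := by linear_combination h
    rcases mul_eq_zero.1 this with h | h
    · exact h2 h
    · exact h0 h
  have h11 : (1 : K) ≠ -1 := by
    intro h
    apply h2
    linear_combination h
  rw [Finset.card_insert_of_notMem, Finset.card_insert_of_notMem, Finset.card_insert_of_notMem,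
    Finset.card_insert_of_notMem, Finset.card_singleton]
  · simpa using hcc
  · simp only [Finset.mem_insert, Finset.mem_singleton, not_or]
    exact ⟨fun h => h3 h.symm, fun h => h1 (by simpa using h.symm)⟩
  · simp only [Finset.mem_insert, Finset.mem_singleton, not_or]
    exact ⟨h11, fun h => h1 h.symm, fun h => h3 (by rw [h]; simp)⟩
  · simp only [Finset.mem_insert, Finset.mem_singleton, not_or]
    exact ⟨zero_ne_one, by simp, fun h => h0 h.symm, by simpa using h0⟩

theorem gl_main (hK : 4 ≤ Cardinal.mk K) (n : ℕ) (hn : 3 ≤ n) (J g : GL (Fin n) K)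
    (hJ : ∀ i j : Fin n, (J : Matrix (Fin n) (Fin n) K) i j = if i = j then 1 else if j.val = i.val + 1 then 1 else 0)
    (hg : ¬ ∃ c : K, (g : Matrix (Fin n) (Fin n) K) = c • (1 : Matrix (Fin n) (Fin n) K))
    (hdet : (g : Matrix (Fin n) (Fin n) K).det = 1) :
    ∃ x y : GL (Fin n) K, g = (x * J * x⁻¹) * (y * J * y⁻¹) := by
  obtain ⟨m, rfl⟩ : ∃ m, n = m + 1 := ⟨n - 1, by omega⟩
  have hT : ∃ T : Finset K, 4 ≤ T.card := by
    have h1 : ((4 : ℕ) : Cardinal) ≤ Cardinal.mk K := by exact_mod_cast hK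
    obtain ⟨f⟩ : Nonempty (Fin 4 ↪ K) := by
      have h2 : Cardinal.lift.{u} (Cardinal.mk (Fin 4)) ≤ Cardinal.lift.{0} (Cardinal.mk K) := by
        simpa using h1
      exact Cardinal.lift_mk_le'.1 h2
    exact ⟨Finset.univ.map f, by simp⟩
  obtain ⟨T, hT⟩ := hT
  set R : (Fin (m + 1) → K) →ₗ[K] (Fin (m + 1) → K) := Matrix.toLin' (g : Matrix (Fin (m + 1)) (Fin (m + 1)) K)
    with hR
  have hRdet : R.det = 1 := by rw [hR, LinearMap.det_toLin', hdet]
  have hRm : LinearMap.toMatrix' R = (g : Matrix (Fin (m + 1)) (Fin (m + 1)) K) := LinearMap.toMatrix'_toLin' _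
  have hns : ∀ c : K, R ≠ c • 1 := by
    intro c hc
    apply hg
    refine ⟨c, ?_⟩
    rw [← hRm, hc, map_smul]
    congr 1
    exact LinearMap.toMatrix'_one
  have hfr : finrank K (Fin (m + 1) → K) = m + 1 := by simp
  have key : ∃ B C : (Fin (m + 1) → K) →ₗ[K] (Fin (m + 1) → K), R = B.comp C ∧ Reg m B ∧ Reg m C := by
    by_cases hk : finrank K (ker (R - 1)) + 2 ≤ m + 1
    · obtain ⟨B, C, h1, h2, h3, h4, v, h5⟩ := fac_main hT (exists_five hT) m (Fin (m + 1) → K) hfr R hRdet
        (Or.inr ⟨hns, hk⟩) (Pi.single 0 1) (by simp) (LinearMap.proj 0) (by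
          intro h
          have := congrArg (fun f => f (Pi.single 0 1)) h
          simp at this)
      refine ⟨B, C, h1, ⟨h2, _, h4⟩, ⟨h3, v, ?_⟩⟩
      intro h
      rw [h, map_zero] at h5
      exact h5 rfl
    · refine trans_fac (by omega) hfr hRdet ?_ (by omega)
      intro h
      exact hns 1 (by rw [one_smul]; exact h)
  obtain ⟨B, C, h1, h2, h3⟩ := key
  obtain ⟨x, hx⟩ := reg_conj h2 hJ
  obtain ⟨y, hy⟩ := reg_conj h3 hJ
  refine ⟨x, y, ?_⟩
  apply Units.ext
  rw [Units.val_mul, ← hx, ← hy, ← hRm, h1, LinearMap.toMatrix'_comp]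

end Mat

end Cfsg.Agent.Mdx.RU
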