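import Mathlib

set_option autoImplicit false

/-! # Sylow subgroups of symmetric and alternating groups are generated by elements of order `p` -/

namespace Cfsg.Agent.Mdx.SySn

open Equiv Equiv.Perm Subgroup

variable (p : ℕ)

/-- the `p`-th powers lie in the derived subgroup -/
def PE (G : Type*) [Group G] : Prop := ∀ x : G, x ^ p ∈ commutator G

variable {p}

theorem PE.of_equiv {A B : Type*} [Group A] [Group B] (e : A ≃* B) (h : PE p B) : PE p A := by
  intro x
  have h1 := h (e x)
  have h2 : commutator A = (commutator B).comap e.toMonoidHom := by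
    have h3 : (commutator A).map e.toMonoidHom = commutator B := by
      rw [commutator_def, commutator_def, Subgroup.map_commutator]
      rw [Subgroup.map_top_of_surjective _ e.surjective]
    rw [← h3, Subgroup.comap_map_eq_self_of_injective e.injective]
  rw [h2, Subgroup.mem_comap]
  simpa using h1

theorem PE.of_closure {G : Type*} [Group G] (H : Subgroup G)
    (h : H ≤ closure {x | x ∈ H ∧ x ^ p = 1}) : PE p H := by
  have key : ∀ x : H, (Abelianization.of x) ^ p = 1 := by
    intro ⟨x, hx⟩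
    have h1 := h hx
    revert hx
    refine closure_induction (p := fun x _ => ∀ hx : x ∈ H, (Abelianization.of (⟨x, hx⟩ : H)) ^ p = 1)
      ?_ ?_ ?_ ?_ h1
    · rintro y ⟨hy, hyp⟩ hy'
      rw [← map_pow]
      have : (⟨y, hy'⟩ : H) ^ p = 1 := by ext; simpa using hyp
      rw [this, map_one]
    · intro h1
      rw [← map_pow]
      have : (⟨1, h1⟩ : H) ^ p = 1 := by ext; simp
      rw [this, map_one]
    · intro y z hy hz h2 h3 hyz
      have hle : closure {x | x ∈ H ∧ x ^ p = 1} ≤ H := by
        rw [closure_le]; exact fun x hx => hx.1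
      have hy1 : y ∈ H := hle hy
      have hz1 : z ∈ H := hle hz
      have : (⟨y * z, hyz⟩ : H) = ⟨y, hy1⟩ * ⟨z, hz1⟩ := rfl
      rw [this, map_mul, mul_pow, h2 hy1, h3 hz1, one_mul]
    · intro y hy h2 hyi
      have hle : closure {x | x ∈ H ∧ x ^ p = 1} ≤ H := by
        rw [closure_le]; exact fun x hx => hx.1
      have hy1 : y ∈ H := hle hy
      have : (⟨y⁻¹, hyi⟩ : H) = (⟨y, hy1⟩ : H)⁻¹ := rfl
      rw [this, map_inv, inv_pow, h2 hy1, inv_one]
  intro x
  have h1 := key x
  rw [← map_pow] at h1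
  have h2 : x ^ p ∈ (Abelianization.of : H →* Abelianization H).ker := h1
  rwa [Abelianization.ker_of] at h2


variable (p)

/-- the base group -/
def base (m : ℕ) : (Fin m → Multiplicative (ZMod p)) →* Perm (ZMod p × Fin m) where
  toFun b :=
    { toFun := fun x => (x.1 + (b x.2).toAdd, x.2)
      invFun := fun x => (x.1 - (b x.2).toAdd, x.2)
      left_inv := fun x => by simp
      right_inv := fun x => by simp }
  map_one' := by ext x <;> simp
  map_mul' := by
    intro b c
    ext x
    · simp only [Pi.mul_apply, toAdd_mul, coe_fn_mk, Perm.coe_mul, Function.comp_apply]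
      ring
    · simp

theorem base_apply {m : ℕ} (b : Fin m → Multiplicative (ZMod p)) (x : ZMod p × Fin m) :
    base p m b x = (x.1 + (b x.2).toAdd, x.2) := rfl

/-- the top group -/
def top (m : ℕ) : Perm (Fin m) →* Perm (ZMod p × Fin m) where
  toFun σ := prodCongrRight (fun _ => σ)
  map_one' := by ext x <;> simp [prodCongrRight]
  map_mul' := by
    intro b c
    ext x <;> simp [prodCongrRight]

theorem top_apply {m : ℕ} (σ : Perm (Fin m)) (x : ZMod p × Fin m) :
    top p m σ x = (x.1, σ x.2) := rfl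

theorem top_sign [Fact p.Prime] {m : ℕ} (σ : Perm (Fin m)) : sign (top p m σ) = sign σ ^ p := by
  have h := sign_prodCongrRight (α := ZMod p) (β := Fin m) (fun _ => σ)
  change sign (prodCongrRight (fun _ : ZMod p => σ)) = _
  rw [h, Finset.prod_const, Finset.card_univ, ZMod.card]

theorem top_conj {m : ℕ} (σ : Perm (Fin m)) (b : Fin m → Multiplicative (ZMod p)) :
    top p m σ * base p m b * (top p m σ)⁻¹ = base p m (b ∘ σ.symm) := by
  rw [mul_inv_eq_iff_eq_mul]
  ext x
  · simp [base_apply, top_apply]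
  · simp [base_apply, top_apply]

theorem base_inj (m : ℕ) : Function.Injective (base p m) := by
  intro b c h
  funext i
  have h1 := congrArg (fun f => f ((0 : ZMod p), i)) h
  simp only [base_apply, zero_add, Prod.mk.injEq, and_true] at h1
  exact h1

theorem top_inj (m : ℕ) : Function.Injective (top p m) := by
  intro b c h
  ext i
  have h1 := congrArg (fun f => f ((0 : ZMod p), i)) h
  simp only [top_apply, Prod.mk.injEq, true_and] at h1
  rw [h1]

theorem base_top {m : ℕ} {σ : Perm (Fin m)} {b : Fin m → Multiplicative (ZMod p)}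
    (h : top p m σ = base p m b) : σ = 1 := by
  ext i
  have h1 := congrArg (fun f => f ((0 : ZMod p), i)) h
  simp only [top_apply, base_apply, Prod.mk.injEq] at h1
  rw [h1.2]; rfl

/-- the inclusion in the big symmetric group -/
def emb {n m r : ℕ} (E : Fin n ≃ (ZMod p × Fin m) ⊕ Fin r) :
    Perm (ZMod p × Fin m) →* Perm (Fin n) :=
  (E.symm.permCongrHom.toMonoidHom).comp
    ((Perm.sumCongrHom (ZMod p × Fin m) (Fin r)).comp (MonoidHom.inl _ _))

theorem emb_inj {n m r : ℕ} (E : Fin n ≃ (ZMod p × Fin m) ⊕ Fin r) :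
    Function.Injective (emb p E) := by
  intro a b h
  simp only [emb, MonoidHom.comp_apply, MonoidHom.inl_apply] at h
  have h1 := E.symm.permCongrHom.injective h
  have h2 := Perm.sumCongrHom_injective h1
  exact (Prod.mk.inj h2).1

theorem emb_sign [Fact p.Prime] {n m r : ℕ} (E : Fin n ≃ (ZMod p × Fin m) ⊕ Fin r)
    (σ : Perm (ZMod p × Fin m)) : sign (emb p E σ) = sign σ := by
  have h1 : emb p E σ = E.symm.permCongr (Perm.sumCongr σ 1) := rfl
  rw [h1, sign_permCongr, sign_sumCongr, map_one, mul_one]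


theorem exists_equiv [Fact p.Prime] (n : ℕ) :
    Nonempty (Fin n ≃ (ZMod p × Fin (n / p)) ⊕ Fin (n % p)) := by
  apply Fintype.card_eq.1
  rw [Fintype.card_sum, Fintype.card_prod, ZMod.card, Fintype.card_fin, Fintype.card_fin,
    Fintype.card_fin, Nat.div_add_mod]

/-- the good property -/
def Good (n : ℕ) (H : Subgroup (Perm (Fin n))) : Prop :=
  IsPGroup p H ∧ Nat.card H = p ^ (n.factorial).factorization p ∧
    H ≤ closure {x | x ∈ H ∧ x ^ p = 1} ∧
    ∀ x ∈ H, sign x = 1 → x ∈ closure {y | y ∈ H ∧ y ^ p = 1 ∧ sign y = 1}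

theorem exists_good [hp : Fact p.Prime] (n : ℕ) : ∃ H : Subgroup (Perm (Fin n)), Good p n H := by
  induction n using Nat.strong_induction_on with
  | _ n ih =>
  rcases Nat.eq_zero_or_pos n with rfl | hn
  · refine ⟨⊥, IsPGroup.of_bot, by simp, bot_le, ?_⟩
    intro x hx _
    rw [mem_bot] at hx
    rw [hx]
    exact one_mem _
  obtain ⟨E⟩ := exists_equiv p n
  have hpp := hp.out
  have ih' := ih (n / p) (Nat.div_lt_self hn hpp.one_lt)
  obtain ⟨m, hm⟩ : ∃ m, m = n / p := ⟨_, rfl⟩
  rw [← hm] at E ih'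
  obtain ⟨K, hK1, hK2, hK3, hK4⟩ := ih'
  let f : Perm (Fin m) →* Perm (Fin n) := (emb p E).comp (top p m)
  let g : (Fin m → Multiplicative (ZMod p)) →* Perm (Fin n) := (emb p E).comp (base p m)
  have hf : Function.Injective f := (emb_inj p E).comp (top_inj p m)
  have hg : Function.Injective g := (emb_inj p E).comp (base_inj p m)
  have hfg : ∀ σ b, f σ = g b → σ = 1 := fun σ b h => base_top p (emb_inj p E h)
  have hconj : ∀ σ b, f σ * g b * (f σ)⁻¹ = g (b ∘ σ.symm) := by
    intro σ b
    change emb p E _ * emb p E _ * (emb p E _)⁻¹ = emb p E _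
    rw [← top_conj, map_mul, map_mul, map_inv]
  have hfs : ∀ σ, sign (f σ) = sign σ ^ p := fun σ => by
    change sign (emb p E _) = _
    rw [emb_sign, top_sign]
  have hgp : ∀ b, (g b) ^ p = 1 := by
    intro b
    rw [← map_pow]
    have : b ^ p = 1 := by
      funext i
      change (b i) ^ p = 1
      have : (p • (b i).toAdd) = 0 := by
        rw [nsmul_eq_mul, ZMod.natCast_self, zero_mul]
      exact this
    rw [this, map_one]
  let R := K.map f
  let B := g.range
  have hRB : R ≤ normalizer (B : Set (Perm (Fin n))) := by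
    rintro _ ⟨σ, hσ, rfl⟩
    rw [mem_normalizer_iff]
    intro y
    constructor
    · rintro ⟨b, rfl⟩
      exact ⟨b ∘ σ.symm, (hconj σ b).symm⟩
    · rintro ⟨b, hb⟩
      refine ⟨b ∘ σ, ?_⟩
      have h1 := hconj σ (b ∘ σ)
      have h2 : (b ∘ σ) ∘ σ.symm = b := by
        funext i; simp
      rw [h2, hb] at h1
      have h3 := mul_right_cancel h1
      exact mul_left_cancel h3
  have hBp : IsPGroup p B := by
    intro ⟨x, hx⟩
    obtain ⟨b, rfl⟩ := hx
    refine ⟨1, ?_⟩
    ext1
    simpa using hgp b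
  have hRp : IsPGroup p R := hK1.map f
  have hHp : IsPGroup p (R ⊔ B : Subgroup (Perm (Fin n))) := hRp.to_sup_of_normal_right' hBp hRB
  have hmul : ∀ x ∈ R ⊔ B, ∃ r ∈ R, ∃ b ∈ B, r * b = x := by
    intro x hx
    have h1 := Subgroup.coe_mul_of_left_le_normalizer_right R B hRB
    have h2 : x ∈ ((R ⊔ B : Subgroup (Perm (Fin n))) : Set (Perm (Fin n))) := hx
    rw [h1] at h2
    obtain ⟨r, hr, b, hb, h3⟩ := Set.mem_mul.1 h2
    exact ⟨r, hr, b, hb, h3⟩
  have hdisj : Disjoint R B := by
    rw [disjoint_def]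
    rintro _ ⟨σ, hσ, rfl⟩ ⟨b, hb⟩
    rw [hfg σ b hb.symm, map_one]
  have hcardR : Nat.card R = p ^ (m.factorial).factorization p := by
    rw [← hK2]
    exact (Nat.card_congr (K.equivMapOfInjective f hf).toEquiv).symm
  have hcardB : Nat.card B = p ^ m := by
    rw [← Nat.card_congr (MonoidHom.ofInjective hg).toEquiv]
    simp [Nat.card_eq_fintype_card, ZMod.card]
  have hfac : (n.factorial).factorization p = (m.factorial).factorization p + m := by
    rw [Nat.factorization_def _ hpp, Nat.factorization_def _ hpp]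
    conv_lhs => rw [← Nat.div_add_mod n p]
    rw [padicValNat_factorial_mul_add _ (Nat.mod_lt n hpp.pos), padicValNat_factorial_mul, hm]
  refine ⟨R ⊔ B, hHp, ?_, ?_, ?_⟩
  · obtain ⟨k, hk⟩ := IsPGroup.iff_card.1 hHp
    have h1 : Nat.card (R × B) ≤ Nat.card (R ⊔ B : Subgroup (Perm (Fin n))) := by
      let φ : R × B → (R ⊔ B : Subgroup (Perm (Fin n))) := fun x =>
        ⟨x.1 * x.2, mul_mem (le_sup_left (a := R) x.1.2) (le_sup_right (a := R) x.2.2)⟩
      apply Nat.card_le_card_of_injective φ
      intro x y hxy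
      apply mul_injective_of_disjoint hdisj
      exact congrArg Subtype.val hxy
    rw [Nat.card_prod, hcardR, hcardB, ← pow_add, ← hfac, hk] at h1
    have h2 : Nat.card (R ⊔ B : Subgroup (Perm (Fin n))) ∣ n.factorial := by
      have := Subgroup.card_subgroup_dvd_card (R ⊔ B)
      rwa [Nat.card_perm, Nat.card_fin] at this
    rw [hk] at h2 ⊢
    have h3 : k ≤ (n.factorial).factorization p :=
      (hpp.pow_dvd_iff_le_factorization (Nat.factorial_ne_zero n)).1 h2
    have h4 := (Nat.pow_le_pow_iff_right hpp.one_lt).1 h1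
    rw [le_antisymm h3 h4]
  · intro x hx
    obtain ⟨r, hr, b, hb, rfl⟩ := hmul x hx
    apply mul_mem
    · obtain ⟨σ, hσ, rfl⟩ := hr
      have h1 := hK3 hσ
      have h2 : f σ ∈ (closure {x | x ∈ K ∧ x ^ p = 1}).map f := mem_map_of_mem f h1
      rw [MonoidHom.map_closure] at h2
      refine closure_mono ?_ h2
      rintro _ ⟨y, ⟨hy, hyp⟩, rfl⟩
      refine ⟨le_sup_left (a := R) ⟨y, hy, rfl⟩, ?_⟩
      rw [← map_pow, hyp, map_one]
    · apply Subgroup.subset_closure
      refine ⟨le_sup_right (a := R) hb, ?_⟩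
      obtain ⟨b, rfl⟩ := hb
      exact hgp b
  · intro x hx hs
    obtain ⟨r, hr, b, hb, rfl⟩ := hmul x hx
    have hs' : ∀ y : Perm (Fin n), p ≠ 2 → y ^ p = 1 → sign y = 1 := by
      intro y h2 hy
      have hodd := hpp.odd_of_ne_two h2
      have h3 : sign y ^ p = 1 := by rw [← map_pow, hy, map_one]
      rcases Int.units_eq_one_or (sign y) with h4 | h4
      · exact h4
      · rw [h4, hodd.neg_one_pow] at h3
        exact absurd h3 (by decide)
    have hsr : sign r = 1 ∨ p ≠ 2 := by
      by_cases h2 : p = 2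
      · left
        obtain ⟨σ, hσ, rfl⟩ := hr
        rw [hfs, h2]
        exact Int.units_sq _
      · exact Or.inr h2
    have hrr : ∀ y ∈ R, y ^ p = 1 → sign y = 1 := by
      intro y hy hyp
      by_cases h2 : p = 2
      · obtain ⟨σ, hσ, rfl⟩ := hy
        rw [hfs, h2]
        exact Int.units_sq _
      · exact hs' y h2 hyp
    apply mul_mem
    · obtain ⟨σ, hσ, rfl⟩ := hr
      have h1 := hK3 hσ
      have h2 : f σ ∈ (closure {x | x ∈ K ∧ x ^ p = 1}).map f := mem_map_of_mem f h1
      rw [MonoidHom.map_closure] at h2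
      refine closure_mono ?_ h2
      rintro _ ⟨y, ⟨hy, hyp⟩, rfl⟩
      have h3 : (f y) ^ p = 1 := by rw [← map_pow, hyp, map_one]
      exact ⟨le_sup_left (a := R) ⟨y, hy, rfl⟩, h3, hrr _ ⟨y, hy, rfl⟩ h3⟩
    · apply Subgroup.subset_closure
      have h3 : b ^ p = 1 := by
        obtain ⟨b, rfl⟩ := hb
        exact hgp b
      refine ⟨le_sup_right (a := R) hb, h3, ?_⟩
      by_cases h2 : p = 2
      · have h4 : sign r = 1 := hsr.resolve_right (by simpa using h2)
        rw [map_mul, h4, one_mul] at hs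
        exact hs
      · exact hs' b h2 h3


theorem relIndex_dvd_normal_right {G : Type*} [Group G] [Finite G] (H A : Subgroup G) [A.Normal] :
    H.relIndex A ∣ H.index := by
  obtain ⟨c, hc⟩ := relIndex_dvd_index_of_normal A H
  have h1 : (H ⊓ A).relIndex A * A.index = (H ⊓ A).index :=
    relIndex_mul_index inf_le_right
  have h2 : (H ⊓ A).relIndex H * H.index = (H ⊓ A).index :=
    relIndex_mul_index inf_le_left
  rw [inf_relIndex_right] at h1
  rw [inf_relIndex_left] at h2
  rw [← h2, hc] at h1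
  have h3 : A.relIndex H ≠ 0 := index_ne_zero_of_finite
  refine ⟨c, ?_⟩
  have h4 : A.relIndex H * (H.relIndex A * c) = A.relIndex H * H.index := by
    rw [← h1]; ring
  exact (Nat.eq_of_mul_eq_mul_left (Nat.pos_of_ne_zero h3) h4).symm

theorem main_sym [Fact p.Prime] (n : ℕ) (P : Sylow p (Perm (Fin n))) :
    PE p (P : Subgroup (Perm (Fin n))) := by
  obtain ⟨H, hH1, hH2, hH3, hH4⟩ := exists_good p n
  let Q : Sylow p (Perm (Fin n)) := Sylow.ofCard H (by rw [hH2, Nat.card_perm, Nat.card_fin])
  have h1 : PE p (Q : Subgroup (Perm (Fin n))) := PE.of_closure _ hH3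
  exact PE.of_equiv (Sylow.equiv P Q) h1

theorem main_alt [Fact p.Prime] (n : ℕ) (P : Sylow p (alternatingGroup (Fin n))) :
    PE p (P : Subgroup (alternatingGroup (Fin n))) := by
  obtain ⟨H, hH1, hH2, hH3, hH4⟩ := exists_good p n
  let Q0 : Sylow p (Perm (Fin n)) := Sylow.ofCard H (by rw [hH2, Nat.card_perm, Nat.card_fin])
  have hQ0 : ¬ p ∣ H.index := Q0.not_dvd_index
  have hK1 : IsPGroup p (H.subgroupOf (alternatingGroup (Fin n))) :=
    hH1.comap_of_injective _ (Subgroup.subtype_injective _)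
  have hK2 : ¬ p ∣ (H.subgroupOf (alternatingGroup (Fin n))).index := by
    intro h
    exact hQ0 (h.trans (relIndex_dvd_normal_right H (alternatingGroup (Fin n))))
  let Q : Sylow p (alternatingGroup (Fin n)) := hK1.toSylow hK2
  have h1 : PE p (Q : Subgroup (alternatingGroup (Fin n))) := by
    apply PE.of_closure
    intro x hx
    have hx1 : (x : Perm (Fin n)) ∈ H := hx
    have h2 := hH4 x hx1 (mem_alternatingGroup.1 x.2)
    have h3 : closure {y | y ∈ H ∧ y ^ p = 1 ∧ sign y = 1} ≤
        (closure {y | y ∈ (Q : Subgroup (alternatingGroup (Fin n))) ∧ y ^ p = 1}).map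
          (alternatingGroup (Fin n)).subtype := by
      rw [closure_le]
      rintro y ⟨hy1, hy2, hy3⟩
      refine ⟨⟨y, mem_alternatingGroup.2 hy3⟩, Subgroup.subset_closure ⟨hy1, ?_⟩, rfl⟩
      ext1
      simpa using hy2
    obtain ⟨y, hy, hyx⟩ := h3 h2
    have h4 : y = x := Subtype.ext hyx
    rw [← h4]; exact hy
  exact PE.of_equiv (Sylow.equiv P Q) h1

end Cfsg.Agent.Mdx.SySn
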